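-- helper94: SU_3(q): a subgroup containing a full Sylow subgroup of Siegel elements and an
-- element moving its isotropic point is everything; growth of the Siegel part under a
-- Borel element.
import Mathlib
import Cfsg.Prelude.Def_Classical
import Cfsg.Prelude.Def_ClassicalGeometry
import Cfsg.Agent.Lib.Helper13.PSUSimple
import Cfsg.Agent.Lib.Helper37.SU3PJoin

set_option autoImplicit false

namespace Cfsg.Agent.Lib.Helper94.SU3RU

open Matrix Cfsg.Agent.Lib.Helper45 Cfsg.Agent.Lib.Helper13 Cfsg.Agent.Lib.Helper44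

variable {F : Type*} [Field F] [Fintype F] {q : ℕ}

/-- the matrix of an element of `SU_3`. -/
abbrev smat (g : ↥(Cfsg.SU 3 F q)) : Matrix (Fin 3) (Fin 3) F :=
  ((g : Matrix.SpecialLinearGroup (Fin 3) F) : Matrix (Fin 3) (Fin 3) F)

lemma smat_mul (g h : ↥(Cfsg.SU 3 F q)) : smat (g * h) = smat g * smat h := rfl

lemma smat_one : smat (1 : ↥(Cfsg.SU 3 F q)) = 1 := rfl

lemma smat_iso (g : ↥(Cfsg.SU 3 F q)) : IsHermIso 3 F q (smat g) := g.2

lemma smat_inv_mul (g : ↥(Cfsg.SU 3 F q)) : smat g⁻¹ * smat g = 1 := by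
  rw [← smat_mul, inv_mul_cancel, smat_one]

lemma smat_mul_inv (g : ↥(Cfsg.SU 3 F q)) : smat g * smat g⁻¹ = 1 := by
  rw [← smat_mul, mul_inv_cancel, smat_one]

lemma smat_inv_of_mul (g : ↥(Cfsg.SU 3 F q)) (M : Matrix (Fin 3) (Fin 3) F)
    (h : smat g * M = 1) : smat g⁻¹ = M := by
  calc smat g⁻¹ = smat g⁻¹ * (smat g * M) := by rw [h, Matrix.mul_one]
    _ = (smat g⁻¹ * smat g) * M := by rw [Matrix.mul_assoc]
    _ = M := by rw [smat_inv_mul, Matrix.one_mul]

lemma smat_conj (g u : ↥(Cfsg.SU 3 F q)) (X : Matrix (Fin 3) (Fin 3) F)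
    (h : smat g * smat u = X * smat g) : smat (g * u * g⁻¹) = X := by
  rw [smat_mul, smat_mul, h, Matrix.mul_assoc, smat_mul_inv, Matrix.mul_one]

/-- a Siegel matrix which is an isometry has a valid parameter. -/
lemma siegel_valid_of_iso (hF : Fintype.card F = q ^ 2) (v w : Fin 3 → F) (c : F)
    (hv0 : v ≠ 0) (hv : Cfsg.hermForm 3 F q v v = 0) (hwv : Cfsg.hermForm 3 F q w v = 0)
    (hS : IsHermIso 3 F q (siegel q v w c)) :
    c + c ^ q + Cfsg.hermForm 3 F q w w = 0 := by
  obtain ⟨u, hu⟩ := Cfsg.Agent.Lib.Helper37.herm3_exists_pairing hF v hv0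
  have hvw : Cfsg.hermForm 3 F q v w = 0 := by rw [← herm_conj hF, hwv, conj_zero hF]
  have h := hS u u
  rw [siegel_mulVec v w c hv] at h
  simp only [herm_add_left, herm_sub_left, herm_add_right hF, herm_sub_right hF, herm_smul_left,
    herm_smul_right, mul_pow, herm_conj hF, hv, hwv, hvw] at h
  have hvu : Cfsg.hermForm 3 F q v u ≠ 0 := by
    rw [← herm_conj hF]
    exact pow_ne_zero _ hu
  have key : Cfsg.hermForm 3 F q u v * Cfsg.hermForm 3 F q v u *
      (c + c ^ q + Cfsg.hermForm 3 F q w w) = 0 := by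
    linear_combination h
  rcases mul_eq_zero.mp key with h1 | h1
  · rcases mul_eq_zero.mp h1 with h2 | h2
    · exact absurd h2 hu
    · exact absurd h2 hvu
  · exact h1

/-- moving a multiple of `v` inside the second argument of a Siegel matrix. -/
lemma siegel_shift (hF : Fintype.card F = q ^ 2) (v w : Fin 3 → F) (γ c : F)
    (hv : Cfsg.hermForm 3 F q v v = 0) :
    siegel q v (w + γ • v) c = siegel q v w (c + γ - γ ^ q) := by
  rw [Matrix.ext_iff_mulVec]
  intro x
  rw [siegel_mulVec v _ c hv, siegel_mulVec v w _ hv, herm_add_right hF, herm_smul_right]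
  module

/-- changing the parameter of a Siegel matrix by a transvection. -/
lemma siegel_param (v w : Fin 3 → F) (c c' : F)
    (hv : Cfsg.hermForm 3 F q v v = 0) (hwv : Cfsg.hermForm 3 F q w v = 0) :
    siegel q v w c = Cfsg.unitaryTransvection 3 q v (c - c') * siegel q v w c' := by
  rw [Matrix.ext_iff_mulVec]
  intro x
  rw [← Matrix.mulVec_mulVec, siegel_mulVec v w c hv, siegel_mulVec v w c' hv, utransv_mulVec]
  simp only [herm_add_left, herm_sub_left, herm_smul_left, hv, hwv, mul_zero, add_zero, sub_zero]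
  module

/-- **Lemma A.** A subgroup of `SU_3(q)`, `q ≥ 3`, containing all Siegel elements at the
isotropic vector `v` and an element moving the point of `v` is everything. -/
theorem top_of_siegels (hF : Fintype.card F = q ^ 2) (hq : 3 ≤ q)
    (H : Subgroup ↥(Cfsg.SU 3 F q)) (v : Fin 3 → F) (hv0 : v ≠ 0)
    (hv : Cfsg.hermForm 3 F q v v = 0)
    (hU : ∀ (w : Fin 3 → F) (c : F), Cfsg.hermForm 3 F q w v = 0 →
      c + c ^ q + Cfsg.hermForm 3 F q w w = 0 →
      ∀ g : ↥(Cfsg.SU 3 F q), smat g = siegel q v w c → g ∈ H)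
    (g0 : ↥(Cfsg.SU 3 F q)) (hg0 : g0 ∈ H) (hg0v : ∀ c : F, smat g0 *ᵥ v ≠ c • v) :
    H = ⊤ := by
  classical
  have hq0 : q ≠ 0 := by omega
  -- transvections with centre `v`
  have hT : ∀ (b : F), b ^ q = -b → ∀ g : ↥(Cfsg.SU 3 F q),
      smat g = Cfsg.unitaryTransvection 3 q v b → g ∈ H := by
    intro b hb g hg
    apply hU 0 b (herm_zero_left hF 3 v) _ g
    · rw [hg, siegel_zero hF v b hv]
    · rw [hb, herm_zero_left hF]
      ring
  rw [eq_top_iff, ← Cfsg.Agent.S0780.result hF 3 (le_refl 3) (by omega), Subgroup.closure_le]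
  rintro A ⟨z, c, hz, hA0⟩
  have hA : smat A = Cfsg.unitaryTransvection 3 q z c := hA0
  by_cases hz0 : z = 0
  · have h1 : A = 1 := by
      apply su_ext
      show smat A = smat 1
      rw [hA, hz0, utransv_zero_left, smat_one]
    rw [h1]
    exact Subgroup.one_mem _
  have hAi : IsHermIso 3 F q (Cfsg.unitaryTransvection 3 q z c) := by
    rw [← hA]
    exact A.2
  have hc := utransv_skew hF z c hz0 hz hAi
  by_cases hzv : ∃ l : F, z = l • v
  · obtain ⟨l, rfl⟩ := hzv
    apply hT (l ^ (q + 1) * c) _ A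
    · rw [hA, utransv_smul]
    · rw [mul_pow, norm_fixed hF, hc]
      ring
  · push Not at hzv
    obtain ⟨y0, hy0⟩ : ∃ y0, y0 = smat g0 *ᵥ v := ⟨_, rfl⟩
    have hy0y0 : Cfsg.hermForm 3 F q y0 y0 = 0 := by rw [hy0, smat_iso g0, hv]
    have hκ : Cfsg.hermForm 3 F q y0 v ≠ 0 := by
      intro h0
      have h0' : Cfsg.hermForm 3 F q v y0 = 0 := by rw [← herm_conj hF, h0, conj_zero hF]
      obtain ⟨c', hc'⟩ := Cfsg.Agent.Lib.Helper37.herm3_no_isotropic_plane hF v y0 hv0 hv hy0y0 h0'
      exact hg0v c' (hy0 ▸ hc')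
    have hzv' : Cfsg.hermForm 3 F q z v ≠ 0 := by
      intro h0
      have h0' : Cfsg.hermForm 3 F q v z = 0 := by rw [← herm_conj hF, h0, conj_zero hF]
      obtain ⟨c', hc'⟩ := Cfsg.Agent.Lib.Helper37.herm3_no_isotropic_plane hF v z hv0 hv hz h0'
      exact hzv c' hc'
    obtain ⟨m, hm⟩ : ∃ m : F, m = Cfsg.hermForm 3 F q y0 v / Cfsg.hermForm 3 F q z v := ⟨_, rfl⟩
    have hm0 : m ≠ 0 := by
      rw [hm]
      exact div_ne_zero hκ hzv'
    have hz'v : Cfsg.hermForm 3 F q (m • z) v = Cfsg.hermForm 3 F q y0 v := by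
      rw [herm_smul_left, hm, div_mul_cancel₀ _ hzv']
    have hz'z' : Cfsg.hermForm 3 F q y0 y0 = Cfsg.hermForm 3 F q (m • z) (m • z) := by
      rw [hy0y0, herm_smul_left, herm_smul_right, hz, mul_zero, mul_zero]
    obtain ⟨w, c1, hw, hc1, hmap, -⟩ := siegel_map hF v y0 (m • z)
      (Cfsg.hermForm 3 F q y0 v) hκ hv rfl hz'v hz'z'
    have hvw : Cfsg.hermForm 3 F q v w = 0 := by rw [← herm_conj hF, hw, conj_zero hF]
    obtain ⟨sg, hsg⟩ : ∃ sg : ↥(Cfsg.SU 3 F q), smat sg = siegel q v w c1 :=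
      ⟨suMk (siegel q v w c1) (det_siegel v w c1 hv hw hvw)
        (isHermIso_siegel hF v w c1 hv hw hc1), rfl⟩
    have hsgH : sg ∈ H := hU w c1 hw hc1 sg hsg
    have hk : smat (sg * g0) *ᵥ v = m • z := by
      rw [smat_mul, ← Matrix.mulVec_mulVec, ← hy0, hsg, hmap]
    -- the transvection at `v` with the transported parameter
    obtain ⟨b, hb⟩ : ∃ b : F, b = (m⁻¹) ^ (q + 1) * c := ⟨_, rfl⟩
    have hbq : b ^ q = -b := by
      rw [hb, mul_pow, norm_fixed hF, hc]
      ring
    obtain ⟨T, hTm⟩ : ∃ T : ↥(Cfsg.SU 3 F q), smat T = Cfsg.unitaryTransvection 3 q v b :=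
      ⟨suMk (Cfsg.unitaryTransvection 3 q v b) (det_utransv v b hv)
        (isHermIso_utransv hF v b hv hbq), rfl⟩
    have hTH : T ∈ H := hT b hbq T hTm
    have hz_eq : z = m⁻¹ • (m • z) := by rw [smul_smul, inv_mul_cancel₀ hm0, one_smul]
    have hAk : A * (sg * g0) = (sg * g0) * T := by
      apply su_ext
      show smat A * smat (sg * g0) = smat (sg * g0) * smat T
      rw [hTm, utransv_conj (smat_iso (sg * g0)) v b, hk]
      congr 1
      rw [hA]
      conv_lhs => rw [hz_eq]
      rw [utransv_smul, hb]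
    have hA' : A = (sg * g0) * T * (sg * g0)⁻¹ := by
      rw [← hAk, mul_inv_cancel_right]
    rw [hA']
    exact H.mul_mem (H.mul_mem (H.mul_mem hsgH hg0) hTH) (H.inv_mem (H.mul_mem hsgH hg0))

/-- **Lemma B.** If a subgroup `H` of `SU_3(q)` contains a Siegel element at `v` with
non-trivial `d`-part and an element `β` fixing the point of `v` whose multiplier `κ^q μ` on the
`d`-parts generates the field, then `H` contains all Siegel elements at `v`. -/
theorem siegels_of_gen (hF : Fintype.card F = q ^ 2)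
    (H : Subgroup ↥(Cfsg.SU 3 F q)) (v d : Fin 3 → F) (hv0 : v ≠ 0)
    (hv : Cfsg.hermForm 3 F q v v = 0) (hdv : Cfsg.hermForm 3 F q d v = 0)
    (hdd : Cfsg.hermForm 3 F q d d ≠ 0)
    (x : ↥(Cfsg.SU 3 F q)) (hx : x ∈ H) (a0 c0 : F) (ha0 : a0 ≠ 0)
    (hxm : smat x = siegel q v (a0 • d) c0)
    (β : ↥(Cfsg.SU 3 F q)) (hβ : β ∈ H) (κ μ lam : F)
    (hβv : smat β *ᵥ v = κ • v) (hβd : smat β *ᵥ d = μ • d + lam • v)
    (hgen : ∀ K0 : Subfield F, κ ^ q * μ ∈ K0 → K0 = ⊤) :
    ∀ (w : Fin 3 → F) (c : F), Cfsg.hermForm 3 F q w v = 0 →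
      c + c ^ q + Cfsg.hermForm 3 F q w w = 0 →
      ∀ g : ↥(Cfsg.SU 3 F q), smat g = siegel q v w c → g ∈ H := by
  classical
  have hvd : Cfsg.hermForm 3 F q v d = 0 := by rw [← herm_conj hF, hdv, conj_zero hF]
  have hadv : ∀ a : F, Cfsg.hermForm 3 F q (a • d) v = 0 := by
    intro a
    rw [herm_smul_left, hdv, mul_zero]
  have hvad : ∀ a : F, Cfsg.hermForm 3 F q v (a • d) = 0 := by
    intro a
    rw [herm_smul_right, hvd, mul_zero]
  have hνq : Cfsg.hermForm 3 F q d d ^ q = Cfsg.hermForm 3 F q d d := herm_conj hF 3 d d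
  obtain ⟨P, hP⟩ : ∃ P : F → Prop, P = fun a =>
      ∃ c : F, ∃ g : ↥(Cfsg.SU 3 F q), g ∈ H ∧ smat g = siegel q v (a • d) c := ⟨_, rfl⟩
  have P0 : P 0 := by
    rw [hP]
    refine ⟨0, 1, H.one_mem, ?_⟩
    rw [zero_smul, siegel_zero hF v 0 hv, utransv_zero, smat_one]
  have Padd : ∀ a a' : F, P a → P a' → P (a + a') := by
    intro a a' ha ha'
    rw [hP] at ha ha' ⊢
    obtain ⟨c, g, hg, hgm⟩ := ha
    obtain ⟨c', g', hg', hgm'⟩ := ha'
    refine ⟨c + c' - Cfsg.hermForm 3 F q (a' • d) (a • d), g * g', H.mul_mem hg hg', ?_⟩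
    rw [smat_mul, hgm, hgm', siegel_mul hF v _ _ c c' hv (hadv a') (hvad a), add_smul]
  have Pneg : ∀ a : F, P a → P (-a) := by
    intro a ha
    rw [hP] at ha ⊢
    obtain ⟨c, g, hg, hgm⟩ := ha
    refine ⟨Cfsg.hermForm 3 F q ((-a) • d) (a • d) - c, g⁻¹, H.inv_mem hg, ?_⟩
    apply smat_inv_of_mul
    rw [hgm, siegel_mul hF v _ _ c _ hv (hadv (-a)) (hvad a), ← add_smul, add_neg_cancel,
      zero_smul]
    have e : c + (Cfsg.hermForm 3 F q ((-a) • d) (a • d) - c) -
        Cfsg.hermForm 3 F q ((-a) • d) (a • d) = 0 := by ring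
    rw [e, siegel_zero hF v 0 hv, utransv_zero]
  have Prho : ∀ a : F, P a → P (κ ^ q * μ * a) := by
    intro a ha
    rw [hP] at ha ⊢
    obtain ⟨c, g, hg, hgm⟩ := ha
    refine ⟨κ ^ (q + 1) * c + κ ^ q * a * lam - (κ ^ q * a * lam) ^ q, β * g * β⁻¹,
      H.mul_mem (H.mul_mem hβ hg) (H.inv_mem hβ), ?_⟩
    apply smat_conj
    rw [hgm, siegel_conj (smat_iso β) v (a • d) c hv, hβv, Matrix.mulVec_smul, hβd,
      siegel_smul_left hF v _ κ c hv]
    congr 1
    have e : κ ^ q • a • (μ • d + lam • v) = (κ ^ q * μ * a) • d + (κ ^ q * a * lam) • v := by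
      module
    rw [e, siegel_shift hF v _ _ _ hv]
  -- the multiplier field
  let R : Subfield F :=
    { carrier := {s | ∀ a, P a → P (s * a)}
      mul_mem' := by
        intro s t hs ht a ha
        rw [mul_assoc]
        exact hs _ (ht a ha)
      one_mem' := by
        intro a ha
        rw [one_mul]
        exact ha
      add_mem' := by
        intro s t hs ht a ha
        rw [add_mul]
        exact Padd _ _ (hs a ha) (ht a ha)
      zero_mem' := by
        intro a _
        rw [zero_mul]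
        exact P0
      neg_mem' := by
        intro s hs a ha
        rw [neg_mul]
        exact Pneg _ (hs a ha)
      inv_mem' := by
        intro s hs
        by_cases hs0 : s = 0
        · rw [hs0, _root_.inv_zero]
          intro a _
          rw [zero_mul]
          exact P0
        · have hpow : ∀ k : ℕ, ∀ a, P a → P (s ^ k * a) := by
            intro k
            induction k with
            | zero =>
              intro a ha
              rw [pow_zero, one_mul]
              exact ha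
            | succ k ih =>
              intro a ha
              rw [pow_succ, mul_assoc]
              exact ih _ (hs a ha)
          have hcard : 2 ≤ Fintype.card F := Fintype.one_lt_card
          have h1 : s ^ (Fintype.card F - 1) = 1 := FiniteField.pow_card_sub_one_eq_one s hs0
          have h2 : s * s ^ (Fintype.card F - 2) = 1 := by
            rw [← pow_succ', ← h1]
            congr 1
            omega
          rw [inv_eq_of_mul_eq_one_right h2]
          exact hpow _ }
  have hR : R = ⊤ := hgen R Prho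
  have hall : ∀ s a : F, P a → P (s * a) := by
    intro s a ha
    have hs : s ∈ R := by
      rw [hR]
      exact Subfield.mem_top s
    exact hs a ha
  have Pa0 : P a0 := by
    rw [hP]
    exact ⟨c0, x, hx, hxm⟩
  have Pall : ∀ a : F, P a := by
    intro a
    have h := hall (a / a0) a0 Pa0
    rwa [div_mul_cancel₀ _ ha0] at h
  -- transvections at `v`
  have hT : ∀ (b : F), b ^ q = -b → ∀ g : ↥(Cfsg.SU 3 F q),
      smat g = Cfsg.unitaryTransvection 3 q v b → g ∈ H := by
    intro b hb g hg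
    have hbν : (b / Cfsg.hermForm 3 F q d d) ^ q = -(b / Cfsg.hermForm 3 F q d d) := by
      rw [div_pow, hb, hνq, neg_div]
    obtain ⟨a, ha⟩ := exists_skew_repr hF _ hbν
    have hPa := Pall a
    have hP1 := Pall 1
    rw [hP] at hPa hP1
    obtain ⟨ca, ga, hga, hgam⟩ := hPa
    obtain ⟨c1, g1, hg1, hg1m⟩ := hP1
    have hk1 : smat (ga * g1) = siegel q v (a • d + (1 : F) • d)
        (ca + c1 - Cfsg.hermForm 3 F q ((1 : F) • d) (a • d)) := by
      rw [smat_mul, hgam, hg1m, siegel_mul hF v _ _ ca c1 hv (hadv 1) (hvad a)]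
    have hk2 : smat (g1 * ga) = siegel q v (a • d + (1 : F) • d)
        (c1 + ca - Cfsg.hermForm 3 F q (a • d) ((1 : F) • d)) := by
      rw [smat_mul, hgam, hg1m, siegel_mul hF v _ _ c1 ca hv (hadv a) (hvad 1), add_comm]
    have hwv : Cfsg.hermForm 3 F q (a • d + (1 : F) • d) v = 0 := by
      rw [herm_add_left, hadv, hadv, add_zero]
    have hdiff : (ca + c1 - Cfsg.hermForm 3 F q ((1 : F) • d) (a • d)) -
        (c1 + ca - Cfsg.hermForm 3 F q (a • d) ((1 : F) • d)) = b := by
      rw [herm_smul_left, herm_smul_right, herm_smul_left, herm_smul_right, one_pow]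
      have hd0 := hdd
      field_simp at ha
      linear_combination ha
    have hg' : g = (ga * g1) * (g1 * ga)⁻¹ := by
      rw [eq_mul_inv_iff_mul_eq]
      apply su_ext
      show smat (g * (g1 * ga)) = smat (ga * g1)
      rw [smat_mul g, hg, hk1, hk2]
      conv_rhs => rw [siegel_param v _ _
        (c1 + ca - Cfsg.hermForm 3 F q (a • d) ((1 : F) • d)) hv hwv]
      rw [hdiff]
    rw [hg']
    exact H.mul_mem (H.mul_mem hga hg1) (H.inv_mem (H.mul_mem hg1 hga))
  -- the general Siegel element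
  intro w c hwv hc g hg
  obtain ⟨u, hu⟩ := Cfsg.Agent.Lib.Helper37.herm3_exists_pairing hF v hv0
  have hind : ∀ a1 b1 c1 : F, a1 • v + b1 • d + c1 • u = 0 → a1 = 0 ∧ b1 = 0 ∧ c1 = 0 := by
    intro a1 b1 c1 h
    have e1 : Cfsg.hermForm 3 F q (a1 • v + b1 • d + c1 • u) v = 0 := by
      rw [h, herm_zero_left hF]
    rw [herm_add_left, herm_add_left, herm_smul_left, herm_smul_left, herm_smul_left, hv, hdv,
      mul_zero, mul_zero, zero_add, zero_add] at e1
    have hc1 : c1 = 0 := (mul_eq_zero.mp e1).resolve_right hu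
    subst hc1
    have e2 : Cfsg.hermForm 3 F q (a1 • v + b1 • d + (0 : F) • u) d = 0 := by
      rw [h, herm_zero_left hF]
    rw [herm_add_left, herm_add_left, herm_smul_left, herm_smul_left, herm_smul_left, hvd,
      mul_zero, zero_mul, zero_add, add_zero] at e2
    have hb1 : b1 = 0 := (mul_eq_zero.mp e2).resolve_right hdd
    subst hb1
    rw [zero_smul, zero_smul, add_zero, add_zero] at h
    exact ⟨(smul_eq_zero.mp h).resolve_right hv0, rfl, rfl⟩
  obtain ⟨a2, b2, c2, hw⟩ := Cfsg.Agent.Lib.Helper37.span3 v d u hind w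
  have hc2 : c2 = 0 := by
    have e1 := hwv
    rw [hw, herm_add_left, herm_add_left, herm_smul_left, herm_smul_left, herm_smul_left, hv, hdv,
      mul_zero, mul_zero, zero_add, zero_add] at e1
    exact (mul_eq_zero.mp e1).resolve_right hu
  subst hc2
  have hw' : w = b2 • d + a2 • v := by
    rw [hw, zero_smul, add_zero, add_comm]
  have hgi : IsHermIso 3 F q (siegel q v (b2 • d) (c + a2 - a2 ^ q)) := by
    rw [← siegel_shift hF v _ _ _ hv, ← hw', ← hg]
    exact smat_iso g
  have hval := siegel_valid_of_iso hF v (b2 • d) _ hv0 hv (hadv b2) hgi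
  have hPb := Pall b2
  rw [hP] at hPb
  obtain ⟨cb, gb, hgb, hgbm⟩ := hPb
  have hgbi : IsHermIso 3 F q (siegel q v (b2 • d) cb) := by
    rw [← hgbm]
    exact smat_iso gb
  have hvalb := siegel_valid_of_iso hF v (b2 • d) _ hv0 hv (hadv b2) hgbi
  have hskew : ((c + a2 - a2 ^ q) - cb) ^ q = -((c + a2 - a2 ^ q) - cb) := by
    rw [conj_sub hF]
    linear_combination hval - hvalb
  obtain ⟨T, hTm⟩ : ∃ T : ↥(Cfsg.SU 3 F q),
      smat T = Cfsg.unitaryTransvection 3 q v ((c + a2 - a2 ^ q) - cb) :=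
    ⟨suMk (Cfsg.unitaryTransvection 3 q v _) (det_utransv v _ hv)
      (isHermIso_utransv hF v _ hv hskew), rfl⟩
  have hTH : T ∈ H := hT _ hskew T hTm
  have hg' : g = T * gb := by
    apply su_ext
    show smat g = smat (T * gb)
    rw [smat_mul, hTm, hgbm, hg, hw', siegel_shift hF v _ _ _ hv,
      siegel_param _ _ (c + a2 - a2 ^ q) cb hv (hadv b2)]
  rw [hg']
  exact H.mul_mem hTH hgb

end Cfsg.Agent.Lib.Helper94.SU3RU
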