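-- helper94: SU_3(q): hyperbolic basis, Siegel elements in coordinates, Weyl elements,
-- conjugation of regular unipotent elements, the generation criterion in coordinates.
import Mathlib
import Cfsg.Agent.Lib.Helper94.SU3RU.Core

set_option autoImplicit false

namespace Cfsg.Agent.Lib.Helper94.SU3RU

open Matrix Cfsg.Agent.Lib.Helper45 Cfsg.Agent.Lib.Helper13 Cfsg.Agent.Lib.Helper44

variable {F : Type*} [Field F] [Fintype F] {q : ℕ}

/-- a hyperbolic basis `e, d, f` of the hermitian `3`-space. -/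
structure HypBasis (q : ℕ) (e d f : Fin 3 → F) : Prop where
  ee : Cfsg.hermForm 3 F q e e = 0
  ff : Cfsg.hermForm 3 F q f f = 0
  ef : Cfsg.hermForm 3 F q e f = 1
  fe : Cfsg.hermForm 3 F q f e = 1
  dd : Cfsg.hermForm 3 F q d d = 1
  de : Cfsg.hermForm 3 F q d e = 0
  ed : Cfsg.hermForm 3 F q e d = 0
  df : Cfsg.hermForm 3 F q d f = 0
  fd : Cfsg.hermForm 3 F q f d = 0
  span : ∀ w : Fin 3 → F, ∃ α β γ : F, w = α • e + β • d + γ • f

theorem exists_hypBasis (hF : Fintype.card F = q ^ 2) :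
    ∃ e d f : Fin 3 → F, HypBasis q e d f := by
  have hq : q ≠ 0 := by have := two_le_q hF; omega
  have hm1 : ((-1 : F)) ^ q = -1 := by rw [conj_neg hF, one_pow]
  obtain ⟨ζ, hζ⟩ := exists_norm_eq hF (-1) (neg_ne_zero.mpr one_ne_zero) hm1
  have hζq : ζ * ζ ^ q = -1 := by rw [← pow_succ', hζ]
  obtain ⟨t, ht⟩ := exists_trace_eq hF (-1) hm1
  have hζ0 : ζ ≠ 0 := by
    rintro rfl
    rw [zero_mul] at hζq
    exact one_ne_zero (neg_eq_zero.mp hζq.symm)
  have h1t : (1 + t) ^ q = 1 + t ^ q := by rw [conj_add hF, one_pow]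
  refine ⟨![1, ζ, 0], ![0, 0, 1], ![1 + t, ζ * t, 0], ?_⟩
  constructor
  · simp only [herm_def, Fin.sum_univ_three, Matrix.cons_val_zero, Matrix.cons_val_one,
      Matrix.cons_val_two, Matrix.head_cons, Matrix.tail_cons, one_pow, zero_pow hq, mul_zero,
      one_mul, add_zero]
    linear_combination hζq
  · simp only [herm_def, Fin.sum_univ_three, Matrix.cons_val_zero, Matrix.cons_val_one,
      Matrix.cons_val_two, Matrix.head_cons, Matrix.tail_cons, one_pow, zero_pow hq, mul_zero,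
      one_mul, add_zero, h1t, mul_pow]
    linear_combination ht + (t * t ^ q) * hζq
  · simp only [herm_def, Fin.sum_univ_three, Matrix.cons_val_zero, Matrix.cons_val_one,
      Matrix.cons_val_two, Matrix.head_cons, Matrix.tail_cons, one_pow, zero_pow hq, mul_zero,
      one_mul, add_zero, h1t, mul_pow]
    linear_combination (t ^ q) * hζq
  · simp only [herm_def, Fin.sum_univ_three, Matrix.cons_val_zero, Matrix.cons_val_one,
      Matrix.cons_val_two, Matrix.head_cons, Matrix.tail_cons, one_pow, zero_pow hq, mul_zero,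
      mul_one, add_zero]
    linear_combination t * hζq
  · simp [herm_def, Fin.sum_univ_three, zero_pow hq]
  · simp [herm_def, Fin.sum_univ_three, zero_pow hq]
  · simp [herm_def, Fin.sum_univ_three, zero_pow hq]
  · simp [herm_def, Fin.sum_univ_three, zero_pow hq]
  · simp [herm_def, Fin.sum_univ_three, zero_pow hq]
  · intro w
    refine ⟨w 1 / ζ - (w 0 - w 1 / ζ) * t, w 2, w 0 - w 1 / ζ, ?_⟩
    funext i
    fin_cases i
    · simp
      ring
    · simp
      field_simp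
      ring
    · simp

/-- the Siegel matrix at `v` with `d`-part `a` and parameter `b`. -/
def Xm (q : ℕ) (v d : Fin 3 → F) (a b : F) : Matrix (Fin 3) (Fin 3) F :=
  siegel q v (a • d) b

/-- the vector with coordinates `z` in the basis `e, d, f`. -/
def vec (e d f : Fin 3 → F) (z : F × F × F) : Fin 3 → F :=
  z.1 • e + z.2.1 • d + z.2.2 • f

/-- action of `X(a, b)` on coordinates (`a'` the conjugate of `a`). -/
def cX (a a' b : F) (z : F × F × F) : F × F × F :=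
  (z.1 - a' * z.2.1 + b * z.2.2, z.2.1 + a * z.2.2, z.2.2)

/-- action of `Y(c, d')` on coordinates (`c'` the conjugate of `c`). -/
def cY (c c' d' : F) (z : F × F × F) : F × F × F :=
  (z.1, z.2.1 + c * z.1, z.2.2 - c' * z.2.1 + d' * z.1)

/-- action of the Weyl element on coordinates (`σ` the conjugate of `s`). -/
def cW (s σ : F) (z : F × F × F) : F × F × F :=
  (z.2.2 / σ, -(σ / s) * z.2.1, s * z.1)

section basis

variable {e d f : Fin 3 → F}

lemma herm_vec_e (hb : HypBasis q e d f) (z : F × F × F) :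
    Cfsg.hermForm 3 F q (vec e d f z) e = z.2.2 := by
  unfold vec
  rw [herm_add_left, herm_add_left, herm_smul_left, herm_smul_left, herm_smul_left, hb.ee, hb.de,
    hb.fe]
  ring

lemma herm_vec_d (hb : HypBasis q e d f) (z : F × F × F) :
    Cfsg.hermForm 3 F q (vec e d f z) d = z.2.1 := by
  unfold vec
  rw [herm_add_left, herm_add_left, herm_smul_left, herm_smul_left, herm_smul_left, hb.ed, hb.dd,
    hb.fd]
  ring

lemma herm_vec_f (hb : HypBasis q e d f) (z : F × F × F) :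
    Cfsg.hermForm 3 F q (vec e d f z) f = z.1 := by
  unfold vec
  rw [herm_add_left, herm_add_left, herm_smul_left, herm_smul_left, herm_smul_left, hb.ef, hb.df,
    hb.ff]
  ring

lemma X_vec (hb : HypBasis q e d f) (a a' b : F) (ha : a ^ q = a') (z : F × F × F) :
    Xm q e d a b *ᵥ vec e d f z = vec e d f (cX a a' b z) := by
  unfold Xm
  rw [siegel_mulVec _ _ _ hb.ee, herm_smul_right, herm_vec_e hb, herm_vec_d hb, ha]
  unfold vec cX
  module

lemma Y_vec (hb : HypBasis q e d f) (c c' d' : F) (hc : c ^ q = c') (z : F × F × F) :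
    Xm q f d c d' *ᵥ vec e d f z = vec e d f (cY c c' d' z) := by
  unfold Xm
  rw [siegel_mulVec _ _ _ hb.ff, herm_smul_right, herm_vec_f hb, herm_vec_d hb, hc]
  unfold vec cY
  module

lemma mat_ext_vec (hb : HypBasis q e d f) (M N : Matrix (Fin 3) (Fin 3) F)
    (h : ∀ z : F × F × F, M *ᵥ vec e d f z = N *ᵥ vec e d f z) : M = N := by
  rw [Matrix.ext_iff_mulVec]
  intro w
  obtain ⟨α, β, γ, rfl⟩ := hb.span w
  exact h (α, β, γ)

lemma e_eq_vec : e = vec e d f (1, 0, 0) := by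
  unfold vec
  simp

lemma d_eq_vec : d = vec e d f (0, 1, 0) := by
  unfold vec
  simp

lemma e_ne_zero (hb : HypBasis q e d f) : e ≠ 0 := by
  rintro rfl
  have h := hb.ef
  rw [hermForm_zero_left] at h
  exact zero_ne_one h

lemma f_ne_zero (hb : HypBasis q e d f) : f ≠ 0 := by
  rintro rfl
  have h := hb.fe
  rw [hermForm_zero_left] at h
  exact zero_ne_one h

end basis

/-- `X(a, b)`-type matrices as elements of `SU_3`. -/
lemma exists_su_Xm (hF : Fintype.card F = q ^ 2) (v d : Fin 3 → F)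
    (hvv : Cfsg.hermForm 3 F q v v = 0) (hdv : Cfsg.hermForm 3 F q d v = 0)
    (hdd : Cfsg.hermForm 3 F q d d = 1) (a b : F) (hab : b + b ^ q + a * a ^ q = 0) :
    ∃ g : ↥(Cfsg.SU 3 F q), smat g = Xm q v d a b := by
  have hvd : Cfsg.hermForm 3 F q v d = 0 := by rw [← herm_conj hF, hdv, conj_zero hF]
  have h1 : Cfsg.hermForm 3 F q (a • d) v = 0 := by rw [herm_smul_left, hdv, mul_zero]
  have h2 : Cfsg.hermForm 3 F q v (a • d) = 0 := by rw [herm_smul_right, hvd, mul_zero]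
  have h3 : b + b ^ q + Cfsg.hermForm 3 F q (a • d) (a • d) = 0 := by
    rw [herm_smul_left, herm_smul_right, hdd]
    linear_combination hab
  exact ⟨suMk (siegel q v (a • d) b) (det_siegel v _ b hvv h1 h2)
    (isHermIso_siegel hF v _ b hvv h1 h3), rfl⟩

/-- the Weyl matrix `e ↦ s f`, `f ↦ (s^q)⁻¹ e`, `d ↦ -(s^q/s) d`. -/
def Wm (q : ℕ) (e d f : Fin 3 → F) (s c0 : F) : Matrix (Fin 3) (Fin 3) F :=
  Xm q e d (-(c0 / s)) (1 / s ^ q) * Xm q f d c0 s * Xm q e d (-(c0 / s ^ q)) (1 / s ^ q)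

omit [Fintype F] in
lemma cW_aux (s σ c0 k : F) (hs : s ≠ 0) (hσ : σ ≠ 0) (h : c0 * k + s + σ = 0)
    (z : F × F × F) :
    cX (-(c0 / s)) (-(k / σ)) (1 / σ) (cY c0 k s (cX (-(c0 / σ)) (-(k / s)) (1 / σ) z)) =
      cW s σ z := by
  refine Prod.ext ?_ (Prod.ext ?_ ?_) <;> simp only [cX, cY, cW] <;> field_simp
  · linear_combination (σ * s * z.1 + σ * k * z.2.1 + s * z.2.2) * h
  · linear_combination (z.2.1 * σ - c0 * z.2.2) * h
  · linear_combination z.2.2 * h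

section basis2

variable {e d f : Fin 3 → F}

lemma W_vec (hF : Fintype.card F = q ^ 2) (hb : HypBasis q e d f) (s c0 : F) (hs : s ≠ 0)
    (h : c0 * c0 ^ q + s + s ^ q = 0) (z : F × F × F) :
    Wm q e d f s c0 *ᵥ vec e d f z = vec e d f (cW s (s ^ q) z) := by
  have hσ : s ^ q ≠ 0 := pow_ne_zero _ hs
  have e1 : (-(c0 / s ^ q)) ^ q = -(c0 ^ q / s) := by
    rw [conj_neg hF, div_pow, conj_conj hF]
  have e2 : (-(c0 / s)) ^ q = -(c0 ^ q / s ^ q) := by
    rw [conj_neg hF, div_pow]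
  unfold Wm
  rw [← Matrix.mulVec_mulVec, ← Matrix.mulVec_mulVec, X_vec hb _ _ _ e1, Y_vec hb _ _ _ rfl,
    X_vec hb _ _ _ e2, cW_aux s (s ^ q) c0 (c0 ^ q) hs hσ h]

lemma exists_su_Wm (hF : Fintype.card F = q ^ 2) (hb : HypBasis q e d f) (s c0 : F) (hs : s ≠ 0)
    (h : c0 * c0 ^ q + s + s ^ q = 0) :
    ∃ g : ↥(Cfsg.SU 3 F q), smat g = Wm q e d f s c0 := by
  have hσ : s ^ q ≠ 0 := pow_ne_zero _ hs
  obtain ⟨g1, hg1⟩ := exists_su_Xm hF e d hb.ee hb.de hb.dd (-(c0 / s)) (1 / s ^ q) (by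
    rw [conj_neg hF, div_pow, div_pow, one_pow, conj_conj hF]
    field_simp
    linear_combination h)
  obtain ⟨g2, hg2⟩ := exists_su_Xm hF f d hb.ff hb.df hb.dd c0 s (by linear_combination h)
  obtain ⟨g3, hg3⟩ := exists_su_Xm hF e d hb.ee hb.de hb.dd (-(c0 / s ^ q)) (1 / s ^ q) (by
    rw [conj_neg hF, div_pow, div_pow, one_pow, conj_conj hF]
    field_simp
    linear_combination h)
  refine ⟨g1 * g2 * g3, ?_⟩
  rw [smat_mul, smat_mul, hg1, hg2, hg3]
  rfl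

omit [Fintype F] in
lemma conj_aux (δ s σ a1 a1' b1 A A' B : F) (hs : s ≠ 0) (hσ : σ ≠ 0)
    (hA : A = -(σ / s ^ 2)) (hA' : A' = -(s / σ ^ 2))
    (hB : B = δ / (s * σ) + A' * a1 - A * a1') (z : F × F × F) :
    cX a1 a1' b1 (cW s σ (cY 1 1 δ z)) = cX A A' B (cX a1 a1' b1 (cW s σ z)) := by
  subst hA hA' hB
  refine Prod.ext ?_ (Prod.ext ?_ ?_) <;> simp only [cX, cY, cW] <;> field_simp <;> ring

/-- conjugating `Y(1, δ)` by `X(a₁, b₁) W(s, c₀)` gives `X(A, B)`. -/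
lemma conj_Y (hF : Fintype.card F = q ^ 2) (hb : HypBasis q e d f) (δ s c0 a1 b1 A B : F)
    (hs : s ≠ 0) (hW : c0 * c0 ^ q + s + s ^ q = 0)
    (hA : A = -(s ^ q / s ^ 2))
    (hB : B = δ / (s * s ^ q) + A ^ q * a1 - A * a1 ^ q) :
    (Xm q e d a1 b1 * Wm q e d f s c0) * Xm q f d 1 δ =
      Xm q e d A B * (Xm q e d a1 b1 * Wm q e d f s c0) := by
  have hσ : s ^ q ≠ 0 := pow_ne_zero _ hs
  have hA' : A ^ q = -(s / (s ^ q) ^ 2) := by
    rw [hA, conj_neg hF, div_pow, conj_conj hF, ← pow_mul, mul_comm 2 q, pow_mul]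
  apply mat_ext_vec hb
  intro z
  rw [← Matrix.mulVec_mulVec, ← Matrix.mulVec_mulVec, Y_vec hb 1 1 δ (one_pow q), W_vec hF hb s c0 hs hW,
    X_vec hb a1 _ b1 rfl, ← Matrix.mulVec_mulVec, ← Matrix.mulVec_mulVec, W_vec hF hb s c0 hs hW,
    X_vec hb a1 _ b1 rfl, X_vec hb A _ B rfl,
    conj_aux δ s (s ^ q) a1 (a1 ^ q) b1 A (A ^ q) B hs hσ hA hA' hB]

/-- the inverse of `X(a, b)`. -/
lemma X_mul_inv (hb : HypBasis q e d f) (a a' b b' : F) (ha : a ^ q = a') (ha' : (-a) ^ q = -a')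
    (hab : b + b' + a * a' = 0) : Xm q e d a b * Xm q e d (-a) b' = 1 := by
  apply mat_ext_vec hb
  intro z
  rw [← Matrix.mulVec_mulVec, X_vec hb _ _ _ ha', X_vec hb _ _ _ ha, Matrix.one_mulVec]
  congr 1
  refine Prod.ext ?_ (Prod.ext ?_ ?_) <;> simp only [cX]
  · linear_combination z.2.2 * hab
  · ring

/-- the inverse of `Y(c, d')`. -/
lemma Y_mul_inv (hb : HypBasis q e d f) (c c' d1 d2 : F) (hc : c ^ q = c') (hc' : (-c) ^ q = -c')
    (hcd : d1 + d2 + c * c' = 0) : Xm q f d c d1 * Xm q f d (-c) d2 = 1 := by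
  apply mat_ext_vec hb
  intro z
  rw [← Matrix.mulVec_mulVec, Y_vec hb _ _ _ hc', Y_vec hb _ _ _ hc, Matrix.one_mulVec]
  congr 1
  refine Prod.ext ?_ (Prod.ext ?_ ?_) <;> simp only [cY]
  · ring
  · linear_combination z.1 * hcd

/-- `Y(1, δ)` is a regular unipotent matrix. -/
lemma Y_regular (hb : HypBasis q e d f) (δ : F) :
    IsNilpotent (Xm q f d 1 δ - 1) ∧ (Xm q f d 1 δ - 1) ^ (3 - 1) ≠ 0 := by
  have hN : ∀ z : F × F × F, (Xm q f d 1 δ - 1) *ᵥ vec e d f z =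
      vec e d f (0, z.1, -z.2.1 + δ * z.1) := by
    intro z
    rw [Matrix.sub_mulVec, Matrix.one_mulVec, Y_vec hb 1 1 δ (one_pow q)]
    unfold vec cY
    module
  constructor
  · refine ⟨3, ?_⟩
    apply mat_ext_vec hb
    intro z
    rw [pow_succ, pow_succ, pow_one, ← Matrix.mulVec_mulVec, ← Matrix.mulVec_mulVec, hN, hN, hN,
      Matrix.zero_mulVec]
    unfold vec
    simp
  · intro h0
    have h1 : (Xm q f d 1 δ - 1) ^ 2 *ᵥ vec e d f (1, 0, 0) = 0 := by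
      have h0' : (Xm q f d 1 δ - 1) ^ 2 = 0 := h0
      rw [h0', Matrix.zero_mulVec]
    rw [pow_succ, pow_one, ← Matrix.mulVec_mulVec, hN, hN] at h1
    have h2 := congrArg (fun w => Cfsg.hermForm 3 F q w e) h1
    simp only [herm_vec_e hb] at h2
    rw [hermForm_zero_left] at h2
    norm_num at h2

/-- **Generation criterion in coordinates.** -/
theorem main_of_data (hF : Fintype.card F = q ^ 2) (hq : 3 ≤ q) (hb : HypBasis q e d f)
    (u g : ↥(Cfsg.SU 3 F q)) (δ A B : F) (hA : A ≠ 0)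
    (hu : smat u = Xm q f d 1 δ)
    (hx : smat (g * u * g⁻¹) = Xm q e d A B)
    (β : ↥(Cfsg.SU 3 F q))
    (hβ : β ∈ Subgroup.closure ({u, g * u * g⁻¹} : Set ↥(Cfsg.SU 3 F q)))
    (κ μ lam : F) (hβe : smat β *ᵥ e = κ • e) (hβd : smat β *ᵥ d = μ • d + lam • e)
    (hgen : ∀ K0 : Subfield F, κ ^ q * μ ∈ K0 → K0 = ⊤) :
    Subgroup.closure ({u, g * u * g⁻¹} : Set ↥(Cfsg.SU 3 F q)) = ⊤ := by
  have huH : u ∈ Subgroup.closure ({u, g * u * g⁻¹} : Set ↥(Cfsg.SU 3 F q)) :=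
    Subgroup.subset_closure (Set.mem_insert _ _)
  have hxH : g * u * g⁻¹ ∈ Subgroup.closure ({u, g * u * g⁻¹} : Set ↥(Cfsg.SU 3 F q)) :=
    Subgroup.subset_closure (Set.mem_insert_of_mem _ rfl)
  have he0 := e_ne_zero hb
  apply top_of_siegels hF hq _ e he0 hb.ee _ u huH
  · intro c hc
    rw [hu] at hc
    have h1 : Xm q f d 1 δ *ᵥ vec e d f (1, 0, 0) = c • e := by
      rw [← e_eq_vec]
      exact hc
    rw [Y_vec hb 1 1 δ (one_pow q)] at h1
    have h2 := congrArg (fun w => Cfsg.hermForm 3 F q w d) h1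
    simp only [herm_vec_d hb, herm_smul_left, hb.ed, cY] at h2
    norm_num at h2
  · exact siegels_of_gen hF _ e d he0 hb.ee hb.de (by rw [hb.dd]; exact one_ne_zero)
      (g * u * g⁻¹) hxH A B hA hx β hβ κ μ lam hβe hβd hgen

/-- **Assembly.** From the parameters of a pair and a Borel word to the statement. -/
theorem case_of_data (hF : Fintype.card F = q ^ 2) (hq : 3 ≤ q) (hb : HypBasis q e d f)
    (δ ε s c0 a1 b1 A B κ μ lam : F)
    (hδq : δ ^ q = ε) (hδε : δ + ε + 1 = 0) (hs0 : s ≠ 0) (hc0 : c0 * c0 ^ q + s + s ^ q = 0)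
    (hb1v : b1 + b1 ^ q + a1 * a1 ^ q = 0)
    (hA : A = -(s ^ q / s ^ 2)) (hB : B = δ / (s * s ^ q) + A ^ q * a1 - A * a1 ^ q)
    (hA0 : A ≠ 0)
    (hword : ∀ u x : ↥(Cfsg.SU 3 F q), smat u = Xm q f d 1 δ → smat x = Xm q e d A B →
      ∃ β ∈ Subgroup.closure ({u, x} : Set ↥(Cfsg.SU 3 F q)),
        smat β *ᵥ e = κ • e ∧ smat β *ᵥ d = μ • d + lam • e)
    (hgen : ∀ K0 : Subfield F, κ ^ q * μ ∈ K0 → K0 = ⊤) :
    ∃ u g : ↥(Cfsg.SU 3 F q), (IsNilpotent (smat u - 1) ∧ (smat u - 1) ^ (3 - 1) ≠ 0) ∧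
      Subgroup.closure ({u, g * u * g⁻¹} : Set ↥(Cfsg.SU 3 F q)) = ⊤ := by
  obtain ⟨u, hu⟩ := exists_su_Xm hF f d hb.ff hb.df hb.dd 1 δ (by
    rw [hδq, one_pow]
    linear_combination hδε)
  obtain ⟨gX, hgX⟩ := exists_su_Xm hF e d hb.ee hb.de hb.dd a1 b1 hb1v
  obtain ⟨gW, hgW⟩ := exists_su_Wm hF hb s c0 hs0 hc0
  have hconj : smat (gX * gW * u * (gX * gW)⁻¹) = Xm q e d A B := by
    apply smat_conj
    rw [smat_mul, hgX, hgW, hu]
    exact conj_Y hF hb δ s c0 a1 b1 A B hs0 hc0 hA hB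
  refine ⟨u, gX * gW, ?_, ?_⟩
  · rw [hu]
    exact Y_regular hb δ
  · obtain ⟨β, hβ, hβe, hβd⟩ := hword u (gX * gW * u * (gX * gW)⁻¹) hu hconj
    exact main_of_data hF hq hb u (gX * gW) δ A B hA0 hu hconj β hβ κ μ lam hβe hβd hgen

end basis2

end Cfsg.Agent.Lib.Helper94.SU3RU
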