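-- helper94: subfields of a finite field of order q^2 containing suitable elements.
import Mathlib

set_option autoImplicit false

namespace Cfsg.Agent.Lib.Helper94.SU3RU

variable {F : Type*} [Field F] [Fintype F]

lemma subfield_card_pow (K0 : Subfield F) : ∃ j : ℕ, Fintype.card F = Nat.card K0 ^ j := by
  classical
  haveI : Fintype K0 := Fintype.ofFinite K0
  refine ⟨Module.finrank K0 F, ?_⟩
  rw [Nat.card_eq_fintype_card]
  exact Module.card_eq_pow_finrank (K := K0) (V := F)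

lemma subfield_pow_card (K0 : Subfield F) (x : F) (hx : x ∈ K0) : x ^ Nat.card K0 = x := by
  classical
  haveI : Fintype K0 := Fintype.ofFinite K0
  have h := FiniteField.pow_card (⟨x, hx⟩ : K0)
  rw [Nat.card_eq_fintype_card]
  exact congrArg Subtype.val h

lemma subfield_top_of_card (K0 : Subfield F) (h : Nat.card K0 = Fintype.card F) : K0 = ⊤ := by
  classical
  apply SetLike.coe_injective
  rw [Subfield.coe_top]
  apply Set.eq_univ_of_forall
  intro x
  by_contra hx
  have h1 : Nat.card K0 < Nat.card F := by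
    have : (K0 : Set F).ncard < (Set.univ : Set F).ncard :=
      Set.ncard_lt_ncard (Set.ssubset_univ_iff.mpr (fun hK => hx (hK ▸ Set.mem_univ x)))
        (Set.toFinite _)
    rwa [Set.ncard_univ] at this
  rw [h, Nat.card_eq_fintype_card] at h1
  exact lt_irrefl _ h1

lemma subfield_two_le_card (K0 : Subfield F) : 2 ≤ Nat.card K0 := Finite.one_lt_card

lemma cube_ineq (q : ℕ) (hq : 3 ≤ q) (h8 : q ≠ 8) : 27 * q ^ 2 < (q + 4) ^ 3 := by
  by_cases h : q ≤ 14
  · interval_cases q <;> simp_all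
  · push Not at h
    nlinarith [sq_nonneg (q : ℤ), h]

/-- a subfield of a field of order `q²` (`q ≥ 3`, `q ≠ 5, 8`) containing the cube of an element of
order `q + 1` is everything. -/
theorem subfield_top_of_order {q : ℕ} (hF : Fintype.card F = q ^ 2) (hq : 3 ≤ q) (h5 : q ≠ 5)
    (h8 : q ≠ 8) (θ : F) (hθ : orderOf θ = q + 1) (K0 : Subfield F) (h : θ ^ 3 ∈ K0) :
    K0 = ⊤ := by
  classical
  obtain ⟨r, hr⟩ : ∃ r, r = Nat.card K0 := ⟨_, rfl⟩
  have hr2 : 2 ≤ r := hr ▸ subfield_two_le_card K0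
  obtain ⟨j, hj⟩ := subfield_card_pow K0
  rw [hF, ← hr] at hj
  have hθ0 : θ ≠ 0 := by
    rintro rfl
    rw [orderOf_zero] at hθ
    omega
  have hx0 : θ ^ 3 ≠ 0 := pow_ne_zero _ hθ0
  have hpow : (θ ^ 3) ^ (r - 1) = 1 := by
    have h1 := subfield_pow_card K0 (θ ^ 3) h
    rw [← hr] at h1
    have h2 : (θ ^ 3) ^ (r - 1) * θ ^ 3 = 1 * θ ^ 3 := by
      rw [← pow_succ, one_mul]
      have : r - 1 + 1 = r := by omega
      rw [this, h1]
    exact mul_right_cancel₀ hx0 h2
  have hord : orderOf (θ ^ 3) ∣ r - 1 := orderOf_dvd_of_pow_eq_one hpow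
  have hord3 : orderOf (θ ^ 3) = (q + 1) / Nat.gcd (q + 1) 3 := by
    rw [orderOf_pow' θ (by norm_num : (3 : ℕ) ≠ 0), hθ]
  rw [hord3] at hord
  obtain ⟨m, hm⟩ : ∃ m, m = (q + 1) / Nat.gcd (q + 1) 3 := ⟨_, rfl⟩
  rw [← hm] at hord
  have hmg : m * Nat.gcd (q + 1) 3 = q + 1 := by
    rw [hm]
    exact Nat.div_mul_cancel (Nat.gcd_dvd_left _ _)
  have hg3 : Nat.gcd (q + 1) 3 = 1 ∨ Nat.gcd (q + 1) 3 = 3 := by
    have h1 : Nat.gcd (q + 1) 3 ∣ 3 := Nat.gcd_dvd_right _ _
    exact (Nat.dvd_prime Nat.prime_three).mp h1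
  have hm0 : 0 < m := by
    rcases Nat.eq_zero_or_pos m with h0 | h0
    · rw [h0, zero_mul] at hmg
      omega
    · exact h0
  have hmle : m ≤ r - 1 := Nat.le_of_dvd (by omega) hord
  rcases Nat.lt_or_ge j 3 with hj3 | hj3
  · interval_cases j
    · rw [pow_zero] at hj
      nlinarith
    · apply subfield_top_of_card
      rw [← hr, hF, hj, pow_one]
    · have hrq : r = q := by
        have := Nat.pow_left_injective (by norm_num : (2 : ℕ) ≠ 0) hj
        exact this.symm
      rw [hrq] at hord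
      have hd1 : m ∣ q + 1 := Dvd.intro _ hmg
      have hd2 : m ∣ 2 := by
        have : m ∣ (q + 1) - (q - 1) := Nat.dvd_sub hd1 hord
        have e : (q + 1) - (q - 1) = 2 := by omega
        rwa [e] at this
      have hm2 : m ≤ 2 := Nat.le_of_dvd (by norm_num) hd2
      exfalso
      rcases hg3 with h1 | h1 <;> rw [h1] at hmg <;> interval_cases m <;> omega
  · exfalso
    have h1 : r ^ 3 ≤ q ^ 2 := by
      rw [hj]
      exact Nat.pow_le_pow_right (by omega) hj3
    have h2 : q + 4 ≤ 3 * r := by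
      rcases hg3 with h3 | h3 <;> rw [h3] at hmg <;> omega
    have h3 : (q + 4) ^ 3 ≤ (3 * r) ^ 3 := Nat.pow_le_pow_left h2 3
    have h4 := cube_ineq q hq h8
    have h5' : (3 * r) ^ 3 = 27 * r ^ 3 := by ring
    rw [h5'] at h3
    omega

/-- in a finite field of order `q²` there is an element of order `q + 1`. -/
theorem exists_orderOf_eq {q : ℕ} (hF : Fintype.card F = q ^ 2) (hq : 2 ≤ q) :
    ∃ θ : F, orderOf θ = q + 1 := by
  classical
  obtain ⟨g, hg⟩ := IsCyclic.exists_generator (α := Fˣ)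
  have hcard : Fintype.card Fˣ = q ^ 2 - 1 := by
    rw [Fintype.card_units, hF]
  have hog : orderOf g = q ^ 2 - 1 := by
    rw [orderOf_eq_card_of_forall_mem_zpowers hg, Nat.card_eq_fintype_card, hcard]
  refine ⟨((g ^ (q - 1) : Fˣ) : F), ?_⟩
  rw [orderOf_units, orderOf_pow' g (by omega : q - 1 ≠ 0), hog]
  have e : q ^ 2 - 1 = (q + 1) * (q - 1) := by
    have h1 : 1 ≤ q := by omega
    zify [h1, Nat.one_le_pow 2 q h1]
    ring
  rw [e, Nat.gcd_mul_left_left, Nat.mul_div_cancel _ (by omega : 0 < q - 1)]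

/-- a subfield of a field of order `p ^ n` has order `p ^ i` with `i ∣ n`. -/
lemma subfield_card_cases {p n : ℕ} (hp : p.Prime) (hn : 0 < n) (hF : Fintype.card F = p ^ n)
    (K0 : Subfield F) : ∃ i j : ℕ, Nat.card K0 = p ^ i ∧ i * j = n := by
  obtain ⟨j, hj⟩ := subfield_card_pow K0
  rw [hF] at hj
  have hj0 : j ≠ 0 := by
    rintro rfl
    rw [pow_zero] at hj
    have := Nat.one_lt_pow hn.ne' hp.one_lt
    omega
  have hdvd : Nat.card K0 ∣ p ^ n := by
    rw [hj]
    exact dvd_pow_self _ hj0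
  obtain ⟨i, -, hi⟩ := (Nat.dvd_prime_pow hp).mp hdvd
  refine ⟨i, j, hi, ?_⟩
  rw [hi, ← pow_mul] at hj
  exact (Nat.pow_right_injective hp.two_le hj).symm

/-- in a field of order `p ^ n` the element `p` vanishes. -/
lemma prime_cast_eq_zero {p n : ℕ} (hF : Fintype.card F = p ^ n) : ((p : ℕ) : F) = 0 := by
  have h := Nat.cast_card_eq_zero F
  rw [hF, Nat.cast_pow] at h
  exact eq_zero_of_pow_eq_zero h

end Cfsg.Agent.Lib.Helper94.SU3RU
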