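-- helper94: SU_3(q), q ≥ 3, q ≠ 5, 8: two conjugate regular unipotent elements generate.
import Mathlib
import Cfsg.Agent.Lib.Helper94.SU3RU.Basis
import Cfsg.Agent.Lib.Helper94.SU3RU.NumField

set_option autoImplicit false

namespace Cfsg.Agent.Lib.Helper94.SU3RU

open Matrix Cfsg.Agent.Lib.Helper45 Cfsg.Agent.Lib.Helper13 Cfsg.Agent.Lib.Helper44

variable {F : Type*} [Field F] [Fintype F] {q : ℕ}

lemma exists_weyl_param (hF : Fintype.card F = q ^ 2) (s : F) :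
    ∃ c0 : F, c0 * c0 ^ q + s + s ^ q = 0 := by
  by_cases h : s + s ^ q = 0
  · exact ⟨0, by rw [zero_mul]; linear_combination h⟩
  · have hfix : (-(s + s ^ q)) ^ q = -(s + s ^ q) := by
      rw [conj_neg hF, conj_add hF, conj_conj hF]
      ring
    obtain ⟨c0, hc0⟩ := exists_norm_eq hF (-(s + s ^ q)) (neg_ne_zero.mpr h) hfix
    exact ⟨c0, by rw [← pow_succ', hc0]; ring⟩

omit [Fintype F] in
lemma generic_e_aux (θ δ ε s a1 A B : F) (hθ0 : θ ≠ 0) (hθ1 : 1 + θ ≠ 0)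
    (hδ : δ = -θ / (1 + θ)) (hε : ε = -1 / (1 + θ)) (hs : s = -(δ * ε)) (ha1 : a1 = δ - 1 / ε)
    (hA : A = 1 / (δ * ε)) (hB : B = δ / (s * s) + A * a1 - A * (ε - 1 / δ)) :
    cY 1 1 δ (cX A A B (cY 1 1 δ (1, 0, 0))) = (θ, 0, 0) := by
  subst hB hA ha1 hs hε hδ
  refine Prod.ext ?_ (Prod.ext ?_ ?_) <;> simp only [cX, cY] <;> field_simp <;> ring

omit [Fintype F] in
lemma generic_d_aux (θ δ ε s a1 A B : F) (hθ0 : θ ≠ 0) (hθ1 : 1 + θ ≠ 0)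
    (hδ : δ = -θ / (1 + θ)) (hε : ε = -1 / (1 + θ)) (hs : s = -(δ * ε)) (ha1 : a1 = δ - 1 / ε)
    (hA : A = 1 / (δ * ε)) (hB : B = δ / (s * s) + A * a1 - A * (ε - 1 / δ)) :
    cY 1 1 δ (cX A A B (cY 1 1 δ (0, 1, 0))) = (-(A + B), 1 / θ ^ 2, 0) := by
  subst hB hA ha1 hs hε hδ
  refine Prod.ext ?_ (Prod.ext ?_ ?_) <;> simp only [cX, cY] <;> field_simp <;> ring

theorem generic_case (hF : Fintype.card F = q ^ 2) (hq : 3 ≤ q) (h5 : q ≠ 5) (h8 : q ≠ 8) :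
    ∃ u g : ↥(Cfsg.SU 3 F q), (IsNilpotent (smat u - 1) ∧ (smat u - 1) ^ (3 - 1) ≠ 0) ∧
      Subgroup.closure ({u, g * u * g⁻¹} : Set ↥(Cfsg.SU 3 F q)) = ⊤ := by
  classical
  obtain ⟨e, d, f, hb⟩ := exists_hypBasis hF
  obtain ⟨θ, hθ⟩ := exists_orderOf_eq hF (by omega)
  have hθ0 : θ ≠ 0 := by
    rintro rfl
    rw [orderOf_zero] at hθ
    omega
  have hθpow : θ ^ (q + 1) = 1 := by
    rw [← hθ]
    exact pow_orderOf_eq_one θ
  have hθ1 : 1 + θ ≠ 0 := by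
    intro h
    have h1 : θ = -1 := by linear_combination h
    have h2 : θ ^ 2 = 1 := by rw [h1]; ring
    have h3 := orderOf_dvd_of_pow_eq_one h2
    rw [hθ] at h3
    have := Nat.le_of_dvd (by norm_num) h3
    omega
  have hθq : θ ^ q = θ⁻¹ := by
    apply eq_inv_of_mul_eq_one_left
    rw [← pow_succ, hθpow]
  obtain ⟨δ, hδ⟩ : ∃ δ : F, δ = -θ / (1 + θ) := ⟨_, rfl⟩
  obtain ⟨ε, hε⟩ : ∃ ε : F, ε = -1 / (1 + θ) := ⟨_, rfl⟩
  have hδq : δ ^ q = ε := by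
    have hθ1' : θ + 1 ≠ 0 := by rwa [add_comm]
    rw [hδ, hε, div_pow, conj_neg hF, conj_add hF, one_pow, hθq]
    field_simp
    try ring
  have hεq : ε ^ q = δ := by rw [← hδq, conj_conj hF]
  have hδε : δ + ε = -1 := by
    rw [hδ, hε]
    field_simp
    ring
  have hδ0 : δ ≠ 0 := by
    rw [hδ]
    exact div_ne_zero (neg_ne_zero.mpr hθ0) hθ1
  have hε0 : ε ≠ 0 := by
    rw [hε]
    exact div_ne_zero (neg_ne_zero.mpr one_ne_zero) hθ1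
  obtain ⟨s, hs⟩ : ∃ s : F, s = -(δ * ε) := ⟨_, rfl⟩
  have hs0 : s ≠ 0 := by
    rw [hs]
    exact neg_ne_zero.mpr (mul_ne_zero hδ0 hε0)
  have hsq : s ^ q = s := by
    rw [hs, conj_neg hF, mul_pow, hδq, hεq]
    ring
  obtain ⟨c0, hc0⟩ := exists_weyl_param hF s
  obtain ⟨a1, ha1⟩ : ∃ a1 : F, a1 = δ - 1 / ε := ⟨_, rfl⟩
  have ha1q : a1 ^ q = ε - 1 / δ := by
    rw [ha1, conj_sub hF, div_pow, one_pow, hδq, hεq]
  obtain ⟨b1, hb1⟩ : ∃ b1 : F, b1 = a1 * a1 ^ q * δ := ⟨_, rfl⟩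
  have hb1v : b1 + b1 ^ q + a1 * a1 ^ q = 0 := by
    rw [hb1, mul_pow, mul_pow, conj_conj hF, hδq]
    linear_combination (a1 * a1 ^ q) * hδε
  obtain ⟨A, hA⟩ : ∃ A : F, A = -(s ^ q / s ^ 2) := ⟨_, rfl⟩
  obtain ⟨B, hB⟩ : ∃ B : F, B = δ / (s * s ^ q) + A ^ q * a1 - A * a1 ^ q := ⟨_, rfl⟩
  have hA1 : A = 1 / (δ * ε) := by
    rw [hA, hsq, hs]
    field_simp
  have hAq : A ^ q = A := by
    rw [hA1, div_pow, one_pow, mul_pow, hδq, hεq, mul_comm]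
  have hB1 : B = δ / (s * s) + A * a1 - A * (ε - 1 / δ) := by
    rw [hB, hsq, hAq, ha1q]
  have hA0 : A ≠ 0 := by
    rw [hA1]
    exact one_div_ne_zero (mul_ne_zero hδ0 hε0)
  obtain ⟨u, hu⟩ := exists_su_Xm hF f d hb.ff hb.df hb.dd 1 δ (by
    rw [hδq, one_pow]
    linear_combination hδε)
  obtain ⟨gX, hgX⟩ := exists_su_Xm hF e d hb.ee hb.de hb.dd a1 b1 hb1v
  obtain ⟨gW, hgW⟩ := exists_su_Wm hF hb s c0 hs0 hc0
  have hconj : smat (gX * gW * u * (gX * gW)⁻¹) = Xm q e d A B := by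
    apply smat_conj
    rw [smat_mul, hgX, hgW, hu]
    exact conj_Y hF hb δ s c0 a1 b1 A B hs0 hc0 hA hB
  refine ⟨u, gX * gW, ?_, ?_⟩
  · rw [hu]
    exact Y_regular hb δ
  · have huH : u ∈ Subgroup.closure ({u, gX * gW * u * (gX * gW)⁻¹} : Set ↥(Cfsg.SU 3 F q)) :=
      Subgroup.subset_closure (Set.mem_insert _ _)
    have hxH : gX * gW * u * (gX * gW)⁻¹ ∈
        Subgroup.closure ({u, gX * gW * u * (gX * gW)⁻¹} : Set ↥(Cfsg.SU 3 F q)) :=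
      Subgroup.subset_closure (Set.mem_insert_of_mem _ rfl)
    have hβm : smat (u * (gX * gW * u * (gX * gW)⁻¹) * u) =
        Xm q f d 1 δ * Xm q e d A B * Xm q f d 1 δ := by
      rw [smat_mul, smat_mul, hconj, hu]
    apply main_of_data hF hq hb u (gX * gW) δ A B hA0 hu hconj
      (u * (gX * gW * u * (gX * gW)⁻¹) * u)
      (Subgroup.mul_mem _ (Subgroup.mul_mem _ huH hxH) huH) θ (1 / θ ^ 2) (-(A + B))
    · have h1 : (Xm q f d 1 δ * Xm q e d A B * Xm q f d 1 δ) *ᵥ vec e d f (1, 0, 0) =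
          vec e d f (θ, 0, 0) := by
        rw [← Matrix.mulVec_mulVec, ← Matrix.mulVec_mulVec, Y_vec hb 1 1 δ (one_pow q),
          X_vec hb A A B hAq, Y_vec hb 1 1 δ (one_pow q),
          generic_e_aux θ δ ε s a1 A B hθ0 hθ1 hδ hε hs ha1 hA1 hB1]
      rw [← e_eq_vec] at h1
      rw [hβm, h1]
      unfold vec
      simp
    · have h1 : (Xm q f d 1 δ * Xm q e d A B * Xm q f d 1 δ) *ᵥ vec e d f (0, 1, 0) =
          vec e d f (-(A + B), 1 / θ ^ 2, 0) := by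
        rw [← Matrix.mulVec_mulVec, ← Matrix.mulVec_mulVec, Y_vec hb 1 1 δ (one_pow q),
          X_vec hb A A B hAq, Y_vec hb 1 1 δ (one_pow q),
          generic_d_aux θ δ ε s a1 A B hθ0 hθ1 hδ hε hs ha1 hA1 hB1]
      rw [← d_eq_vec] at h1
      rw [hβm, h1]
      unfold vec
      simp
      rw [add_comm]
    · intro K0 hK
      apply subfield_top_of_order hF hq h5 h8 θ hθ K0
      have e1 : θ ^ q * (1 / θ ^ 2) = (θ ^ 3)⁻¹ := by
        rw [hθq]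
        field_simp
      rw [e1] at hK
      have := K0.inv_mem hK
      rwa [inv_inv] at this

end Cfsg.Agent.Lib.Helper94.SU3RU
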