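-- helper94: SU_3(5): two conjugate regular unipotent elements generate.
import Mathlib
import Cfsg.Agent.Lib.Helper94.SU3RU.Basis
import Cfsg.Agent.Lib.Helper94.SU3RU.NumField

set_option autoImplicit false
set_option maxHeartbeats 1600000

namespace Cfsg.Agent.Lib.Helper94.SU3RU

open Matrix Cfsg.Agent.Lib.Helper45 Cfsg.Agent.Lib.Helper13 Cfsg.Agent.Lib.Helper44

variable {F : Type*} [Field F] [Fintype F]

theorem q5_case (hF : Fintype.card F = 5 ^ 2) :
    ∃ u g : ↥(Cfsg.SU 3 F 5), (IsNilpotent (smat u - 1) ∧ (smat u - 1) ^ (3 - 1) ≠ 0) ∧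
      Subgroup.closure ({u, g * u * g⁻¹} : Set ↥(Cfsg.SU 3 F 5)) = ⊤ := by
  classical
  obtain ⟨e, d, f, hb⟩ := exists_hypBasis hF
  obtain ⟨t, hto⟩ := exists_orderOf_eq hF (by norm_num)
  have hF' : Fintype.card F = 5 ^ 2 := by rw [hF] <;> norm_num
  have hp : (5 : F) = 0 := by
    have h := prime_cast_eq_zero hF'
    simpa using h
  have h6 : t ^ 6 = 1 := by
    have h := pow_orderOf_eq_one t
    rwa [hto] at h
  have hne2 : t ^ 2 ≠ 1 := by
    intro h
    have h1 := orderOf_dvd_of_pow_eq_one h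
    rw [hto] at h1
    exact absurd (Nat.le_of_dvd (by norm_num) h1) (by norm_num)
  have hne3 : t ^ 3 ≠ 1 := by
    intro h
    have h1 := orderOf_dvd_of_pow_eq_one h
    rw [hto] at h1
    exact absurd (Nat.le_of_dvd (by norm_num) h1) (by norm_num)
  have ht : t ^ 2 - t + 1 = 0 := by
    have hprod : (t ^ 2 - t + 1) * ((t + 1) * (t ^ 3 - 1)) = 0 := by linear_combination h6
    rcases mul_eq_zero.mp hprod with h | h
    · exact h
    · rcases mul_eq_zero.mp h with h | h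
      · exact absurd (by linear_combination (t - 1) * h : t ^ 2 = 1) hne2
      · exact absurd (by linear_combination h : t ^ 3 = 1) hne3
  have hs0 : (2 + t) ≠ (0 : F) := by
    intro h
    exact one_ne_zero (by linear_combination (4 + 2 * t) * h + (-2) * ht + (-1 - 2 * t) * hp : (1 : F) = 0)
  have hAq : (4 + 2 * t) ^ 5 = ((1 + 3 * t) : F) := by
    linear_combination (3808 + 1600 * t + 352 * t ^ 2 + 32 * t ^ 3) * ht + (-557 + 953 * t) * hp
  have hnAq : (-(4 + 2 * t)) ^ 5 = (-(1 + 3 * t) : F) := by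
    linear_combination (-3808 - 1600 * t - 352 * t ^ 2 - 32 * t ^ 3) * ht + (557 - 953 * t) * hp
  have hm1 : (-1 : F) ^ 5 = -1 := by
    linear_combination (0) * ht + (0) * hp
  refine case_of_data hF (by norm_num) hb (3 + 3 * t) (1 + 2 * t) (2 + t) (0) (0) (0) (4 + 2 * t) (4 + 4 * t) (3 + 3 * t) (1 + 4 * t) (3 + t)
    ?_ ?_ hs0 ?_ ?_ ?_ ?_ ?_ ?_ ?_
  · linear_combination (4617 + 3645 * t + 1458 * t ^ 2 + 243 * t ^ 3) * ht + (-875 + 437 * t) * hp
  · linear_combination (0) * ht + (1 + t) * hp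
  · linear_combination (119 + 50 * t + 11 * t ^ 2 + t ^ 3) * ht + (-17 + 30 * t) * hp
  · linear_combination (0) * ht + (0) * hp
  · rw [← neg_div, eq_div_iff (pow_ne_zero 2 hs0)]
    linear_combination (133 + 52 * t + 11 * t ^ 2 + t ^ 3) * ht + (-17 + 37 * t) * hp
  · have h : (3 + 3 * t) / ((2 + t) * (2 + t) ^ 5) = (4 + 4 * t) - (4 + 2 * t) ^ 5 * (0) + (4 + 2 * t) * (0) ^ 5 := by
      rw [div_eq_iff (mul_ne_zero hs0 (pow_ne_zero 5 hs0))]
      linear_combination (-2988 - 2424 * t - 1164 * t ^ 2 - 340 * t ^ 3 - 56 * t ^ 4 - 4 * t ^ 5) * ht + (547 - 317 * t) * hp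
    rw [h]
    ring
  · intro h
    exact one_ne_zero (by linear_combination (2 + t) * h + (-2) * ht + (-1 - 2 * t) * hp : (1 : F) = 0)
  · intro u x hu hx
    have hui : smat u⁻¹ = Xm 5 f d (-1) (1 + 2 * t) := smat_inv_of_mul u _ (by
      rw [hu]
      exact Y_mul_inv hb 1 1 (3 + 3 * t) (1 + 2 * t) (one_pow 5) hm1 (by
        linear_combination (0) * ht + (1 + t) * hp))
    have huH : u ∈ Subgroup.closure ({u, x} : Set ↥(Cfsg.SU 3 F 5)) :=
      Subgroup.subset_closure (Set.mem_insert _ _)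
    have hxH : x ∈ Subgroup.closure ({u, x} : Set ↥(Cfsg.SU 3 F 5)) :=
      Subgroup.subset_closure (Set.mem_insert_of_mem _ rfl)
    have hβm : smat (u * u * x * u⁻¹) =
        Xm 5 f d 1 (3 + 3 * t) * Xm 5 f d 1 (3 + 3 * t) * Xm 5 e d (4 + 2 * t) (4 + 4 * t) * Xm 5 f d (-1) (1 + 2 * t) := by
      rw [smat_mul, smat_mul, smat_mul, hu, hx, hui]
    refine ⟨u * u * x * u⁻¹, (Subgroup.mul_mem _ (Subgroup.mul_mem _ (Subgroup.mul_mem _ huH huH) hxH) (Subgroup.inv_mem _ huH)), ?_, ?_⟩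
    · have h1 : (Xm 5 f d 1 (3 + 3 * t) * Xm 5 f d 1 (3 + 3 * t) * Xm 5 e d (4 + 2 * t) (4 + 4 * t) * Xm 5 f d (-1) (1 + 2 * t)) *ᵥ vec e d f (1, 0, 0) =
          vec e d f ((3 + 3 * t), (0), (0)) := by
        rw [← Matrix.mulVec_mulVec, ← Matrix.mulVec_mulVec, ← Matrix.mulVec_mulVec,
          Y_vec hb (-1) (-1) (1 + 2 * t) hm1,
          X_vec hb (4 + 2 * t) (1 + 3 * t) (4 + 4 * t) hAq,
          Y_vec hb 1 1 (3 + 3 * t) (one_pow 5),
          Y_vec hb 1 1 (3 + 3 * t) (one_pow 5)]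
        congr 1
        refine Prod.ext ?_ (Prod.ext ?_ ?_) <;> simp only [cX, cY]
        · linear_combination (8) * ht + (-1 + 4 * t) * hp
        · linear_combination (20) * ht + (-1 + 12 * t) * hp
        · linear_combination (170 + 48 * t) * ht + (-29 + 43 * t) * hp
      rw [← e_eq_vec] at h1
      rw [hβm, h1]
      unfold vec
      simp
    · have h1 : (Xm 5 f d 1 (3 + 3 * t) * Xm 5 f d 1 (3 + 3 * t) * Xm 5 e d (4 + 2 * t) (4 + 4 * t) * Xm 5 f d (-1) (1 + 2 * t)) *ᵥ vec e d f (0, 1, 0) =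
          vec e d f ((3 + t), (1 + 4 * t), (0)) := by
        rw [← Matrix.mulVec_mulVec, ← Matrix.mulVec_mulVec, ← Matrix.mulVec_mulVec,
          Y_vec hb (-1) (-1) (1 + 2 * t) hm1,
          X_vec hb (4 + 2 * t) (1 + 3 * t) (4 + 4 * t) hAq,
          Y_vec hb 1 1 (3 + 3 * t) (one_pow 5),
          Y_vec hb 1 1 (3 + 3 * t) (one_pow 5)]
        congr 1
        refine Prod.ext ?_ (Prod.ext ?_ ?_) <;> simp only [cX, cY]
        · linear_combination (0) * ht + (0) * hp
        · linear_combination (0) * ht + (2) * hp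
        · linear_combination (6) * ht + (5 * t) * hp
      rw [← d_eq_vec] at h1
      rw [hβm, h1]
      unfold vec
      simp
      rw [add_comm]
  · intro K0 hK
    have hκq : (3 + 3 * t) ^ 5 = ((1 + 2 * t) : F) := by
      linear_combination (4617 + 3645 * t + 1458 * t ^ 2 + 243 * t ^ 3) * ht + (-875 + 437 * t) * hp
    rw [hκq] at hK
    obtain ⟨i, j, hi, hij⟩ := subfield_card_cases (p := 5) (n := 2) (by norm_num) (by norm_num) hF' K0
    have hi2 : i ≤ 2 := Nat.le_of_dvd (by norm_num) (Dvd.intro _ hij)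
    interval_cases i
    · omega
    · have hi' : Nat.card K0 = 5 := by rw [hi] <;> norm_num
      have h1 := subfield_pow_card K0 _ hK
      rw [hi'] at h1
      exact absurd (by linear_combination (2 + t) * h1 + (-605024 + 151208 * t + 755424 * t ^ 2 + 597584 * t ^ 3 - 192480 * t ^ 4 - 913536 * t ^ 5 - 1027072 * t ^ 6 - 638976 * t ^ 7 - 221184 * t ^ 8 - 32768 * t ^ 9) * ht + (121005 - 151256 * t) * hp : (1 : F) = 0) one_ne_zero
    · exact subfield_top_of_card K0 (by rw [hi, hF'])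

end Cfsg.Agent.Lib.Helper94.SU3RU
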