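-- helper94: SU_3(8): two conjugate regular unipotent elements generate.
import Mathlib
import Cfsg.Agent.Lib.Helper94.SU3RU.Basis
import Cfsg.Agent.Lib.Helper94.SU3RU.NumField

set_option autoImplicit false
set_option maxHeartbeats 1600000

namespace Cfsg.Agent.Lib.Helper94.SU3RU

open Matrix Cfsg.Agent.Lib.Helper45 Cfsg.Agent.Lib.Helper13 Cfsg.Agent.Lib.Helper44

variable {F : Type*} [Field F] [Fintype F]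

theorem q8_case (hF : Fintype.card F = 8 ^ 2) :
    ∃ u g : ↥(Cfsg.SU 3 F 8), (IsNilpotent (smat u - 1) ∧ (smat u - 1) ^ (3 - 1) ≠ 0) ∧
      Subgroup.closure ({u, g * u * g⁻¹} : Set ↥(Cfsg.SU 3 F 8)) = ⊤ := by
  classical
  obtain ⟨e, d, f, hb⟩ := exists_hypBasis hF
  obtain ⟨t, hto⟩ := exists_orderOf_eq hF (by norm_num)
  have hF' : Fintype.card F = 2 ^ 6 := by rw [hF] <;> norm_num
  have hp : (2 : F) = 0 := by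
    have h := prime_cast_eq_zero hF'
    simpa using h
  have h9 : t ^ 9 = 1 := by
    have h := pow_orderOf_eq_one t
    rwa [hto] at h
  have hne3 : t ^ 3 ≠ 1 := by
    intro h
    have h1 := orderOf_dvd_of_pow_eq_one h
    rw [hto] at h1
    exact absurd (Nat.le_of_dvd (by norm_num) h1) (by norm_num)
  have ht : t ^ 6 + t ^ 3 + 1 = 0 := by
    have hprod : (t ^ 6 + t ^ 3 + 1) * (t ^ 3 - 1) = 0 := by linear_combination h9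
    rcases mul_eq_zero.mp hprod with h | h
    · exact h
    · exact absurd (by linear_combination h : t ^ 3 = 1) hne3
  have hs0 : (1 + t + t ^ 2 + t ^ 4) ≠ (0 : F) := by
    intro h
    exact one_ne_zero (by linear_combination (t + t ^ 2 + t ^ 5) * h + (-1 - t - t ^ 3) * ht + (1 - t ^ 2 - t ^ 5) * hp : (1 : F) = 0)
  have hAq : (t + t ^ 2 + t ^ 5) ^ 8 = ((t + t ^ 2 + t ^ 5) : F) := by
    linear_combination (-78 - 57 * t + 57 * t ^ 2 + 78 * t ^ 3 - 27 * t ^ 4 - 84 * t ^ 5 + 84 * t ^ 7 + 28 * t ^ 8 - 70 * t ^ 9 - 29 * t ^ 10 + 112 * t ^ 11 + 148 * t ^ 12 + 57 * t ^ 13 + 56 * t ^ 14 + 210 * t ^ 15 + 281 * t ^ 16 + 168 * t ^ 17 + 118 * t ^ 18 + 230 * t ^ 19 + 252 * t ^ 20 + 120 * t ^ 21 + 77 * t ^ 22 + 140 * t ^ 23 + 112 * t ^ 24 + 29 * t ^ 25 + 28 * t ^ 26 + 48 * t ^ 27 + 20 * t ^ 28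 + 8 * t ^ 30 + 7 * t ^ 31 + t ^ 34) * ht + (39 + 28 * t - 29 * t ^ 2 + 42 * t ^ 4 + 13 * t ^ 5) * hp
  have hnAq : (-(t + t ^ 2 + t ^ 5)) ^ 8 = (-(t + t ^ 2 + t ^ 5) : F) := by
    linear_combination (-78 - 57 * t + 57 * t ^ 2 + 78 * t ^ 3 - 27 * t ^ 4 - 84 * t ^ 5 + 84 * t ^ 7 + 28 * t ^ 8 - 70 * t ^ 9 - 29 * t ^ 10 + 112 * t ^ 11 + 148 * t ^ 12 + 57 * t ^ 13 + 56 * t ^ 14 + 210 * t ^ 15 + 281 * t ^ 16 + 168 * t ^ 17 + 118 * t ^ 18 + 230 * t ^ 19 + 252 * t ^ 20 + 120 * t ^ 21 + 77 * t ^ 22 + 140 * t ^ 23 + 112 * t ^ 24 + 29 * t ^ 25 + 28 * t ^ 26 + 48 * t ^ 27 + 20 * t ^ 28 + 8 * t ^ 30 + 7 * t ^ 31 + t ^ 34) * ht + (39 + 29 * t - 28 * t ^ 2 + 42 * t ^ 4 + 14 * t ^ 5) * hp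
  have hm1 : (-1 : F) ^ 8 = -1 := by
    linear_combination (0) * ht + (1) * hp
  refine case_of_data hF (by norm_num) hb (1 + t ^ 3 + t ^ 4 + t ^ 5) (t ^ 3 + t ^ 4 + t ^ 5) (1 + t + t ^ 2 + t ^ 4) (0) (t ^ 2) (t ^ 3) (t + t ^ 2 + t ^ 5) (t ^ 2) (1 + t ^ 2 + t ^ 4 + t ^ 5) (t) (t ^ 3)
    ?_ ?_ hs0 ?_ ?_ ?_ ?_ ?_ ?_ ?_
  · linear_combination (191 + 112 * t - 174 * t ^ 2 - 184 * t ^ 3 + 97 * t ^ 4 + 231 * t ^ 5 + 21 * t ^ 6 - 153 * t ^ 7 + 27 * t ^ 8 + 275 * t ^ 9 + 252 * t ^ 10 + 78 * t ^ 11 + 166 * t ^ 12 + 517 * t ^ 13 + 763 * t ^ 14 + 791 * t ^ 15 + 841 * t ^ 16 + 1119 * t ^ 17 + 1451 * t ^ 18 + 1610 * t ^ 19 + 1632 * t ^ 20 + 1686 * t ^ 21 + 1805 * t ^ 22 + 1841 * t ^ 23 + 1708 * t ^ 24 + 1465 * t ^ 25 + 1211 * t ^ 26 + 974 * t ^ 27 + 728 * t ^ 28 + 476 * t ^ 29 + 258 * t ^ 30 +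 111 * t ^ 31 + 36 * t ^ 32 + 8 * t ^ 33 + t ^ 34) * ht + (-95 - 56 * t + 87 * t ^ 2 - 101 * t ^ 4 - 25 * t ^ 5) * hp
  · linear_combination (0) * ht + (1 + t ^ 3 + t ^ 4 + t ^ 5) * hp
  · linear_combination (90 - 41 * t - 155 * t ^ 2 - 90 * t ^ 3 + 92 * t ^ 4 + 525 * t ^ 5 + 1008 * t ^ 6 + 1581 * t ^ 7 + 2053 * t ^ 8 + 2394 * t ^ 9 + 2555 * t ^ 10 + 2470 * t ^ 11 + 2296 * t ^ 12 + 1912 * t ^ 13 + 1589 * t ^ 14 + 1142 * t ^ 15 + 868 * t ^ 16 + 533 * t ^ 17 + 378 * t ^ 18 + 188 * t ^ 19 + 132 * t ^ 20 + 48 * t ^ 21 + 36 * t ^ 22 + 7 * t ^ 23 + 8 * t ^ 24 + t ^ 26) * ht + (-44 + 25 * t + 96 * t ^ 2 + 56 * t ^ 3 + 112 * t ^ 4 + 95 * t ^ 5) * hp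
  · linear_combination (t ^ 3 - t ^ 6 + t ^ 12 - t ^ 15 + t ^ 18) * ht + (0) * hp
  · rw [← neg_div, eq_div_iff (pow_ne_zero 2 hs0)]
    linear_combination (93 - 37 * t - 153 * t ^ 2 - 86 * t ^ 3 + 94 * t ^ 4 + 527 * t ^ 5 + 1008 * t ^ 6 + 1582 * t ^ 7 + 2053 * t ^ 8 + 2394 * t ^ 9 + 2555 * t ^ 10 + 2470 * t ^ 11 + 2296 * t ^ 12 + 1912 * t ^ 13 + 1589 * t ^ 14 + 1142 * t ^ 15 + 868 * t ^ 16 + 533 * t ^ 17 + 378 * t ^ 18 + 188 * t ^ 19 + 132 * t ^ 20 + 48 * t ^ 21 + 36 * t ^ 22 + 7 * t ^ 23 + 8 * t ^ 24 + t ^ 26) * ht + (-46 + 23 * t + 96 * t ^ 2 + 55 * t ^ 3 + 111 * t ^ 4 + 96 * t ^ 5) * hp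
  · have h : (1 + t ^ 3 + t ^ 4 + t ^ 5) / ((1 + t + t ^ 2 + t ^ 4) * (1 + t + t ^ 2 + t ^ 4) ^ 8) = (t ^ 2) - (t + t ^ 2 + t ^ 5) ^ 8 * (t ^ 2) + (t + t ^ 2 + t ^ 5) * (t ^ 2) ^ 8 := by
      rw [div_eq_iff (mul_ne_zero hs0 (pow_ne_zero 8 hs0))]
      linear_combination (409 + 1692 * t + 2459 * t ^ 2 + 2625 * t ^ 3 + 1416 * t ^ 4 - 1140 * t ^ 5 - 3457 * t ^ 6 - 4062 * t ^ 7 - 3197 * t ^ 8 - 2480 * t ^ 9 - 2690 * t ^ 10 - 3573 * t ^ 11 - 4889 * t ^ 12 - 6644 * t ^ 13 - 7114 * t ^ 14 - 697 * t ^ 15 + 22052 * t ^ 16 + 75642 * t ^ 17 + 182627 * t ^ 18 + 379699 * t ^ 19 + 719284 * t ^ 20 + 1268754 * t ^ 21 + 2104948 * t ^ 22 + 3310161 * t ^ 23 + 4961225 * t ^ 24 + 7114621 * t ^ 25 + 9787275 * t ^ 26 + 12947319 * t ^ 27 + 16509434 * t ^ 28 + 20334110 * t ^ 29 + 24229628 * t ^ 30 + 27970714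 * t ^ 31 + 31326065 * t ^ 32 + 34080667 * t ^ 33 + 36052324 * t ^ 34 + 37113263 * t ^ 35 + 37210752 * t ^ 36 + 36365236 * t ^ 37 + 34658976 * t ^ 38 + 32227534 * t ^ 39 + 29251290 * t ^ 40 + 25927268 * t ^ 41 + 22446092 * t ^ 42 + 18981722 * t ^ 43 + 15684692 * t ^ 44 + 12665704 * t ^ 45 + 9993440 * t ^ 46 + 7703212 * t ^ 47 + 5802282 * t ^ 48 + 4269811 * t ^ 49 + 3067716 * t ^ 50 + 2151396 * t ^ 51 + 1473188 * t ^ 52 + 983934 * t ^ 53 + 640230 * t ^ 54 + 405906 * t ^ 55 + 250864 * t ^ 56 + 150545 * t ^ 57 + 87717 * t ^ 58 + 49671 * t ^ 59 + 27326 * t ^ 60 + 14405 * t ^ 61 + 7390 * t ^ 62 + 3653 * t ^ 63 + 1738 * t ^ 64 + 759 * t ^ 65 + 347 * t ^ 66 + 135 * t ^ 67 + 53 * t ^ 68 + 16 * t ^ 69 + 9 * t ^ 70 + t ^ 72) * ht + (-204 - 846 * t - 1230 * t ^ 2 - 1521 * t ^ 3 - 1576 * t ^ 4 -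 737 * t ^ 5) * hp
    rw [h]
    ring
  · intro h
    exact one_ne_zero (by linear_combination (1 + t + t ^ 2 + t ^ 4) * h + (-1 - t - t ^ 3) * ht + (1 - t ^ 2 - t ^ 5) * hp : (1 : F) = 0)
  · intro u x hu hx
    have hui : smat u⁻¹ = Xm 8 f d (-1) (t ^ 3 + t ^ 4 + t ^ 5) := smat_inv_of_mul u _ (by
      rw [hu]
      exact Y_mul_inv hb 1 1 (1 + t ^ 3 + t ^ 4 + t ^ 5) (t ^ 3 + t ^ 4 + t ^ 5) (one_pow 8) hm1 (by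
        linear_combination (0) * ht + (1 + t ^ 3 + t ^ 4 + t ^ 5) * hp))
    have hxi : smat x⁻¹ = Xm 8 e d (-(t + t ^ 2 + t ^ 5)) (t + t ^ 4) := smat_inv_of_mul x _ (by
      rw [hx]
      exact X_mul_inv hb (t + t ^ 2 + t ^ 5) (t + t ^ 2 + t ^ 5) (t ^ 2) (t + t ^ 4) hAq hnAq (by
        linear_combination (2 + t + t ^ 4) * ht + (-1 + t ^ 2) * hp))
    have huH : u ∈ Subgroup.closure ({u, x} : Set ↥(Cfsg.SU 3 F 8)) :=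
      Subgroup.subset_closure (Set.mem_insert _ _)
    have hxH : x ∈ Subgroup.closure ({u, x} : Set ↥(Cfsg.SU 3 F 8)) :=
      Subgroup.subset_closure (Set.mem_insert_of_mem _ rfl)
    have hβm : smat (u⁻¹ * x⁻¹ * u⁻¹ * x * x * u) =
        Xm 8 f d (-1) (t ^ 3 + t ^ 4 + t ^ 5) * Xm 8 e d (-(t + t ^ 2 + t ^ 5)) (t + t ^ 4) * Xm 8 f d (-1) (t ^ 3 + t ^ 4 + t ^ 5) * Xm 8 e d (t + t ^ 2 + t ^ 5) (t ^ 2) * Xm 8 e d (t + t ^ 2 + t ^ 5) (t ^ 2) * Xm 8 f d 1 (1 + t ^ 3 + t ^ 4 + t ^ 5) := by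
      rw [smat_mul, smat_mul, smat_mul, smat_mul, smat_mul, hu, hx, hui, hxi]
    refine ⟨u⁻¹ * x⁻¹ * u⁻¹ * x * x * u, (Subgroup.mul_mem _ (Subgroup.mul_mem _ (Subgroup.mul_mem _ (Subgroup.mul_mem _ (Subgroup.mul_mem _ (Subgroup.inv_mem _ huH) (Subgroup.inv_mem _ hxH)) (Subgroup.inv_mem _ huH)) hxH) hxH) huH), ?_, ?_⟩
    · have h1 : (Xm 8 f d (-1) (t ^ 3 + t ^ 4 + t ^ 5) * Xm 8 e d (-(t + t ^ 2 + t ^ 5)) (t + t ^ 4) * Xm 8 f d (-1) (t ^ 3 + t ^ 4 + t ^ 5) * Xm 8 e d (t + t ^ 2 + t ^ 5) (t ^ 2) * Xm 8 e d (t + t ^ 2 + t ^ 5) (t ^ 2) * Xm 8 f d 1 (1 + t ^ 3 + t ^ 4 + t ^ 5)) *ᵥ vec e d f (1, 0, 0) =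
          vec e d f ((1 + t ^ 2 + t ^ 4 + t ^ 5), (0), (0)) := by
        rw [← Matrix.mulVec_mulVec, ← Matrix.mulVec_mulVec, ← Matrix.mulVec_mulVec, ← Matrix.mulVec_mulVec, ← Matrix.mulVec_mulVec,
          Y_vec hb 1 1 (1 + t ^ 3 + t ^ 4 + t ^ 5) (one_pow 8),
          X_vec hb (t + t ^ 2 + t ^ 5) (t + t ^ 2 + t ^ 5) (t ^ 2) hAq,
          X_vec hb (t + t ^ 2 + t ^ 5) (t + t ^ 2 + t ^ 5) (t ^ 2) hAq,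
          Y_vec hb (-1) (-1) (t ^ 3 + t ^ 4 + t ^ 5) hm1,
          X_vec hb (-(t + t ^ 2 + t ^ 5)) (-(t + t ^ 2 + t ^ 5)) (t + t ^ 4) hnAq,
          Y_vec hb (-1) (-1) (t ^ 3 + t ^ 4 + t ^ 5) hm1]
        congr 1
        refine Prod.ext ?_ (Prod.ext ?_ ?_) <;> simp only [cX, cY]
        · linear_combination (4 + 4 * t - 2 * t ^ 2 + t ^ 3 + t ^ 4 + 11 * t ^ 5 + 13 * t ^ 6 + 9 * t ^ 7 + 3 * t ^ 8 - 2 * t ^ 10 - 7 * t ^ 11 - 10 * t ^ 12 - 10 * t ^ 13 - 6 * t ^ 14 - 4 * t ^ 15 - 3 * t ^ 16 - 2 * t ^ 17 - t ^ 18) * ht + (-2 - 2 * t + 3 * t ^ 2 + t ^ 3 + t ^ 4 - t ^ 5) * hp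
        · linear_combination (-3 + 4 * t + 6 * t ^ 2 - 2 * t ^ 3 - 3 * t ^ 4 - 9 * t ^ 5 - 15 * t ^ 6 - 15 * t ^ 7 - 3 * t ^ 8 + 10 * t ^ 9 + 17 * t ^ 10 + 19 * t ^ 11 + 22 * t ^ 12 + 24 * t ^ 13 + 19 * t ^ 14 + 12 * t ^ 15 + 7 * t ^ 16 + 5 * t ^ 17 + 3 * t ^ 18 + t ^ 19) * ht + (1 - t - 6 * t ^ 2 - 2 * t ^ 3 - 5 * t ^ 4 - 2 * t ^ 5) * hp
        · linear_combination (-2 + 20 * t + 13 * t ^ 2 + 9 * t ^ 3 + 8 * t ^ 4 + 9 * t ^ 5 + 2 * t ^ 6 - 10 * t ^ 7 + 5 * t ^ 8 + 27 * t ^ 9 + 43 * t ^ 10 + 34 * t ^ 11 + 21 * t ^ 12 + 13 * t ^ 13 + 3 * t ^ 14 - 11 * t ^ 15 - 23 * t ^ 16 - 23 * t ^ 17 - 18 * t ^ 18 - 12 * t ^ 19 - 9 * t ^ 20 - 6 * t ^ 21 - 3 * t ^ 22 - t ^ 23) * ht + (2 - 8 * t - 6 * t ^ 2 - 3 * t ^ 3 - 13 * t ^ 4 - 5 * t ^ 5) * hp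
      rw [← e_eq_vec] at h1
      rw [hβm, h1]
      unfold vec
      simp
    · have h1 : (Xm 8 f d (-1) (t ^ 3 + t ^ 4 + t ^ 5) * Xm 8 e d (-(t + t ^ 2 + t ^ 5)) (t + t ^ 4) * Xm 8 f d (-1) (t ^ 3 + t ^ 4 + t ^ 5) * Xm 8 e d (t + t ^ 2 + t ^ 5) (t ^ 2) * Xm 8 e d (t + t ^ 2 + t ^ 5) (t ^ 2) * Xm 8 f d 1 (1 + t ^ 3 + t ^ 4 + t ^ 5)) *ᵥ vec e d f (0, 1, 0) =
          vec e d f ((t ^ 3), (t), (0)) := by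
        rw [← Matrix.mulVec_mulVec, ← Matrix.mulVec_mulVec, ← Matrix.mulVec_mulVec, ← Matrix.mulVec_mulVec, ← Matrix.mulVec_mulVec,
          Y_vec hb 1 1 (1 + t ^ 3 + t ^ 4 + t ^ 5) (one_pow 8),
          X_vec hb (t + t ^ 2 + t ^ 5) (t + t ^ 2 + t ^ 5) (t ^ 2) hAq,
          X_vec hb (t + t ^ 2 + t ^ 5) (t + t ^ 2 + t ^ 5) (t ^ 2) hAq,
          Y_vec hb (-1) (-1) (t ^ 3 + t ^ 4 + t ^ 5) hm1,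
          X_vec hb (-(t + t ^ 2 + t ^ 5)) (-(t + t ^ 2 + t ^ 5)) (t + t ^ 4) hnAq,
          Y_vec hb (-1) (-1) (t ^ 3 + t ^ 4 + t ^ 5) hm1]
        congr 1
        refine Prod.ext ?_ (Prod.ext ?_ ?_) <;> simp only [cX, cY]
        · linear_combination (4 + t - 6 * t ^ 2 - 10 * t ^ 3 - 3 * t ^ 4 - 4 * t ^ 5 - 2 * t ^ 6 + 2 * t ^ 8 + 3 * t ^ 9 + 2 * t ^ 10 + t ^ 11 + t ^ 12 + t ^ 13) * ht + (-2 - t + t ^ 2 + 3 * t ^ 3 + t ^ 4 + t ^ 5) * hp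
        · linear_combination (1 + 7 * t ^ 2 + 16 * t ^ 3 + 13 * t ^ 4 + 7 * t ^ 5 - t ^ 7 - 3 * t ^ 8 - 6 * t ^ 9 - 7 * t ^ 10 - 3 * t ^ 11 - 2 * t ^ 12 - 2 * t ^ 13 - t ^ 14) * ht + (-8 * t ^ 3 - 6 * t ^ 4 - 2 * t ^ 5) * hp
        · linear_combination (5 + 8 * t + 9 * t ^ 2 + 13 * t ^ 3 + 18 * t ^ 4 + 5 * t ^ 5 - 16 * t ^ 6 - 19 * t ^ 7 - 17 * t ^ 8 - 11 * t ^ 9 - 11 * t ^ 10 - 2 * t ^ 11 + 4 * t ^ 12 + 6 * t ^ 13 + 5 * t ^ 14 + 4 * t ^ 15 + 3 * t ^ 16 + 2 * t ^ 17 + t ^ 18) * ht + (-2 - 5 * t - 4 * t ^ 2 - 8 * t ^ 3 - 14 * t ^ 4 - 12 * t ^ 5) * hp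
      rw [← d_eq_vec] at h1
      rw [hβm, h1]
      unfold vec
      simp
      rw [add_comm]
  · intro K0 hK
    have hκq : (1 + t ^ 2 + t ^ 4 + t ^ 5) ^ 8 = ((1 + t + t ^ 5) : F) := by
      linear_combination (224 - 191 * t + 120 * t ^ 2 - 50 * t ^ 3 + 37 * t ^ 4 + 89 * t ^ 5 - 62 * t ^ 6 + 210 * t ^ 7 + 57 * t ^ 8 + 336 * t ^ 9 + 285 * t ^ 10 + 470 * t ^ 11 + 678 * t ^ 12 + 793 * t ^ 13 + 1077 * t ^ 14 + 1170 * t ^ 15 + 1429 * t ^ 16 + 1589 * t ^ 17 + 1688 * t ^ 18 + 1762 * t ^ 19 + 1716 * t ^ 20 + 1678 * t ^ 21 + 1541 * t ^ 22 + 1343 * t ^ 23 + 1128 * t ^ 24 + 897 * t ^ 25 + 693 * t ^ 26 + 498 * t ^ 27 + 328 * t ^ 28 + 204 * t ^ 29 + 118 * t ^ 30 + 63 * t ^ 31 + 28 * t ^ 32 + 8 * t ^ 33 + t ^ 34) * ht + (-112 + 95 * t - 56 * t ^ 2 - 87 * t ^ 3 + 95 * t ^ 4 - 101 * t ^ 5) * hp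
    rw [hκq] at hK
    obtain ⟨i, j, hi, hij⟩ := subfield_card_cases (p := 2) (n := 6) (by norm_num) (by norm_num) hF' K0
    have hi2 : i ≤ 6 := Nat.le_of_dvd (by norm_num) (Dvd.intro _ hij)
    interval_cases i
    · omega
    · have hi' : Nat.card K0 = 2 := by rw [hi] <;> norm_num
      have h1 := subfield_pow_card K0 _ hK
      rw [hi'] at h1
      exact absurd (by linear_combination (t + t ^ 2 + t ^ 3 + t ^ 5) * h1 + (1 + 4 * t - 3 * t ^ 2 - 2 * t ^ 3 - t ^ 4 - t ^ 6 - 3 * t ^ 7 - t ^ 9 - t ^ 11) * ht + (-2 * t + 2 * t ^ 2 + t ^ 3 - 2 * t ^ 4) * hp : (1 : F) = 0) one_ne_zero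
    · have hi' : Nat.card K0 = 4 := by rw [hi] <;> norm_num
      have h1 := subfield_pow_card K0 _ hK
      rw [hi'] at h1
      exact absurd (by linear_combination (t + t ^ 3 + t ^ 5) * h1 + (-9 - 10 * t + 11 * t ^ 2 + 10 * t ^ 3 - 3 * t ^ 4 - 15 * t ^ 5 - 4 * t ^ 6 + 8 * t ^ 7 - 4 * t ^ 8 - 13 * t ^ 9 - 17 * t ^ 10 + t ^ 11 - 3 * t ^ 12 - 8 * t ^ 13 - 13 * t ^ 14 - 6 * t ^ 15 + t ^ 16 - 4 * t ^ 17 - 3 * t ^ 18 - 5 * t ^ 19 + t ^ 20 - t ^ 21 - t ^ 23) * ht + (5 + 5 * t - 5 * t ^ 2 + 7 * t ^ 4 + 2 * t ^ 5) * hp : (1 : F) = 0) one_ne_zero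
    · have hi' : Nat.card K0 = 8 := by rw [hi] <;> norm_num
      have h1 := subfield_pow_card K0 _ hK
      rw [hi'] at h1
      exact absurd (by linear_combination (t + t ^ 2 + t ^ 4) * h1 + (451 + 72 * t - 413 * t ^ 2 - 225 * t ^ 3 + 343 * t ^ 4 + 342 * t ^ 5 - 225 * t ^ 6 - 414 * t ^ 7 + 72 * t ^ 8 + 449 * t ^ 9 + 63 * t ^ 10 - 450 * t ^ 11 - 309 * t ^ 12 + 217 * t ^ 13 + 216 * t ^ 14 - 344 * t ^ 15 - 610 * t ^ 16 - 287 * t ^ 17 + 8 * t ^ 18 - 259 * t ^ 19 - 630 * t ^ 20 - 596 * t ^ 21 - 315 * t ^ 22 - 287 * t ^ 23 - 484 * t ^ 24 - 518 * t ^ 25 - 371 * t ^ 26 - 264 * t ^ 27 - 315 * t ^ 28 - 308 * t ^ 29 - 218 * t ^ 30 - 147 * t ^ 31 - 147 * t ^ 32 - 148 * t ^ 33 - 84 * t ^ 34 - 49 * t ^ 35 - 40 * t ^ 36 - 49 * t ^ 37 - 28 * t ^ 38 - 8 * t ^ 39 - 7 * t ^ 40 - 7 * t ^ 41 - 8 * t ^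 42 - t ^ 44 - t ^ 46) * ht + (-225 - 36 * t + 207 * t ^ 2 - 112 * t ^ 3 - 207 * t ^ 4 + 36 * t ^ 5) * hp : (1 : F) = 0) one_ne_zero
    · omega
    · omega
    · exact subfield_top_of_card K0 (by rw [hi, hF'])

end Cfsg.Agent.Lib.Helper94.SU3RU
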